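import Cfsg.Agent.GLn.PronRel
import Cfsg.Agent.SymAlt.TreeAlt

/-!
Pronormality in direct products, four-group Sylow subgroups, and the normaliser of the tree group.
-/

set_option autoImplicit false

namespace Cfsg.Agent.Pron

open Subgroup Cfsg.Agent.GLn
open scoped Pointwise

section
variable {G : Type*} [Group G]

theorem frattini [Finite G] {p : ℕ} [Fact p.Prime] (S : Sylow p G) {D : Subgroup G}
    (hS : (S : Subgroup G) ≤ D) {a : G} (ha : ∀ x ∈ (S : Subgroup G), a * x * a⁻¹ ∈ D) :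
    ∃ d ∈ D, d⁻¹ * a ∈ normalizer ((S : Subgroup G) : Set G) := by
  have h2 : ((a • S : Sylow p G) : Subgroup G) ≤ D := by
    rintro _ ⟨x, hx, rfl⟩
    exact ha x hx
  obtain ⟨x, hx⟩ := MulAction.exists_smul_eq D (S.subtype hS) ((a • S).subtype h2)
  rw [Sylow.smul_subtype] at hx
  have h3 : (x : G) • S = a • S := Sylow.subtype_injective hx
  refine ⟨x, x.2, ?_⟩
  change _ ∈ normalizer (S : Set G)
  rw [← Sylow.smul_eq_iff_mem_normalizer, mul_smul, ← h3, inv_smul_smul]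

/-- All overgroups of the Sylow 2-subgroup `S` are pronormal, and its normaliser is abelian
modulo `S`. -/
def Good (G : Type*) [Group G] : Prop :=
  ∃ S : Sylow 2 G, (∀ a ∈ normalizer ((S : Subgroup G) : Set G),
    ∀ b ∈ normalizer ((S : Subgroup G) : Set G), a * b * a⁻¹ * b⁻¹ ∈ (S : Subgroup G)) ∧
    ∀ H : Subgroup G, (S : Subgroup G) ≤ H → IsPronormal H

theorem pronormal_of_sylow_le [Finite G] (S : Sylow 2 G)
    (h : ∀ H : Subgroup G, (S : Subgroup G) ≤ H → IsPronormal H) (H : Subgroup G)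
    (hH : Odd H.index) : IsPronormal H := by
  obtain ⟨S', hS⟩ := exists_sylow_le_of_odd_index' H hH
  obtain ⟨c, hc⟩ := MulAction.exists_smul_eq G S' S
  refine IsPronormal.of_conj c (h _ ?_)
  rw [← hc]
  exact Subgroup.map_mono hS

theorem pronormal_pi {ι : Type*} [Fintype ι] [DecidableEq ι] {G : ι → Type*} [∀ i, Group (G i)]
    [∀ i, Finite (G i)] (hG : ∀ i, Good (G i)) (H : Subgroup (∀ i, G i)) (hH : Odd H.index) :
    IsPronormal H := by
  choose S hab hpr using hG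
  have hP : IsPGroup 2 (Subgroup.pi Set.univ fun i => (S i : Subgroup (G i))) := by
    rintro ⟨x, hx⟩
    choose k hk using fun i => (S i).isPGroup' ⟨x i, hx i trivial⟩
    refine ⟨∑ i, k i, Subtype.ext (funext fun i => ?_)⟩
    obtain ⟨c, hc⟩ : 2 ^ k i ∣ 2 ^ ∑ i, k i :=
      pow_dvd_pow 2 (Finset.single_le_sum (fun _ _ => Nat.zero_le _) (Finset.mem_univ i))
    have := congrArg Subtype.val (hk i)
    change x i ^ 2 ^ k i = 1 at this
    change x i ^ 2 ^ ∑ i, k i = 1
    rw [hc, pow_mul, this, one_pow]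
  let T : Sylow 2 (∀ i, G i) := ⟨_, hP, fun {Q} hQ hle => le_antisymm (fun x hx i _ => by
    have h1 : (S i : Subgroup (G i)) ≤ Q.map (Pi.evalMonoidHom G i) := fun y hy =>
      ⟨Pi.mulSingle i y, hle fun j _ => by
        by_cases h : j = i
        · subst h; simpa using hy
        · simp [h, Subgroup.one_mem], by simp⟩
    change x i ∈ (S i : Subgroup (G i))
    rw [← (S i).is_maximal' (hQ.map _) h1]
    exact ⟨x, hx, rfl⟩) hle⟩
  have hT : ∀ x, x ∈ (T : Subgroup (∀ i, G i)) ↔ ∀ i, x i ∈ (S i : Subgroup (G i)) := fun x =>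
    ⟨fun h i => h i trivial, fun h i _ => h i⟩
  have hsingle : ∀ i, ∀ y ∈ (S i : Subgroup (G i)),
      Pi.mulSingle i y ∈ (T : Subgroup (∀ i, G i)) := fun i y hy => (hT _).2 fun j => by
    by_cases h : j = i
    · subst h; simpa using hy
    · simp [h, Subgroup.one_mem]
  have hconj : ∀ (g : ∀ i, G i) i (y : G i),
      g * Pi.mulSingle i y * g⁻¹ = Pi.mulSingle i (g i * y * (g i)⁻¹) := fun g i y => by
    funext j
    by_cases h : j = i
    · subst h; simp
    · simp [h]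
  have hN : ∀ g ∈ normalizer ((T : Subgroup (∀ i, G i)) : Set (∀ i, G i)), ∀ i,
      g i ∈ normalizer ((S i : Subgroup (G i)) : Set (G i)) := fun g hg i => by
    refine mem_normalizer_fintype fun y hy => ?_
    have := (hT _).1 ((mem_normalizer_iff.1 hg _).1 (hsingle i y hy)) i
    rw [hconj, Pi.mulSingle_eq_same] at this
    exact this
  have hprod : ∀ (K : Subgroup (∀ i, G i)) (x : ∀ i, G i), (∀ i, Pi.mulSingle i (x i) ∈ K) →
      x ∈ K := fun K x h => by
    rw [← Finset.noncommProd_mulSingle x]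
    exact K.noncommProd_mem _ fun i _ => h i
  refine pronormal_of_sylow_le T (fun H hTH => ?_) H hH
  refine pronormal_of_sylow' H T hTH fun g hg => ?_
  let Hi : ∀ i, Subgroup (G i) := fun i => H.comap (MonoidHom.mulSingle G i)
  have hHi : ∀ i y, y ∈ Hi i ↔ Pi.mulSingle i y ∈ H := fun _ _ => Iff.rfl
  have hSi : ∀ i, (S i : Subgroup (G i)) ≤ Hi i := fun i y hy => hTH (hsingle i y hy)
  set K := H ⊔ H.map (MulAut.conj g).toMonoidHom with hK
  have key : ∀ i, ∃ b : G i, Pi.mulSingle i b ∈ K ∧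
      b⁻¹ * g i ∈ normalizer ((S i : Subgroup (G i)) : Set (G i)) ∧
      ∀ y ∈ Hi i, (b⁻¹ * g i) * y * (b⁻¹ * g i)⁻¹ ∈ Hi i := fun i => by
    obtain ⟨b, hb, hb'⟩ := hpr i _ (hSi i) (g i)
    have h1 : ∀ y ∈ Hi i, (b⁻¹ * g i) * y * (b⁻¹ * g i)⁻¹ ∈ Hi i := fun y hy => by
      have := (SetLike.ext_iff.1 hb' (g i * y * (g i)⁻¹)).1 ⟨y, hy, rfl⟩
      rw [mem_map_conj] at this
      convert this using 1
      group
    obtain ⟨d, hd, hd'⟩ := frattini (S i) (hSi i) (a := b⁻¹ * g i) fun y hy => h1 y (hSi i hy)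
    have h2 : Hi i ⊔ (Hi i).map (MulAut.conj (g i)).toMonoidHom ≤
        K.comap (MonoidHom.mulSingle G i) := by
      refine sup_le (comap_mono le_sup_left) ?_
      rintro _ ⟨y, hy, rfl⟩
      refine (le_sup_right : H.map (MulAut.conj g).toMonoidHom ≤ K) ⟨_, hy, ?_⟩
      exact hconj g i y
    refine ⟨b * d, ?_, by simpa [mul_assoc] using hd', fun y hy => ?_⟩
    · exact (K.comap (MonoidHom.mulSingle G i)).mul_mem (h2 hb) (h2 (mem_sup_left hd))
    · have := (Hi i).mul_mem ((Hi i).mul_mem ((Hi i).inv_mem hd) (h1 y hy)) hd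
      convert this using 1
      group
  choose b hb1 hb2 hb3 using key
  refine ⟨b, hprod K b hb1, ?_⟩
  let D : Subgroup (∀ i, G i) := Subgroup.pi Set.univ Hi
  have hDH : D ≤ H := fun x hx => hprod H x fun i => hx i trivial
  have ha : b⁻¹ * g ∈ normalizer (H : Set (∀ i, G i)) := by
    refine mem_normalizer_fintype fun h hh => ?_
    obtain ⟨d, hd, hd'⟩ := frattini T (D := D) (fun x hx i _ => hSi i ((hT x).1 hx i)) (a := h)
      fun x hx i _ => by
        change h i * x i * (h i)⁻¹ ∈ Hi i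
        rw [hHi, ← hconj]
        exact H.mul_mem (H.mul_mem hh (hSi i ((hT x).1 hx i))) (H.inv_mem hh)
    have h1 : (b⁻¹ * g) * d * (b⁻¹ * g)⁻¹ ∈ H := hDH fun i _ => hb3 i _ (hd i trivial)
    have h2 : (b⁻¹ * g) * (d⁻¹ * h) * (b⁻¹ * g)⁻¹ * (d⁻¹ * h)⁻¹ ∈ H :=
      hTH ((hT _).2 fun i => hab i _ (hb2 i) _ (hN _ hd' i))
    have := H.mul_mem h1 (H.mul_mem h2 (H.mul_mem (H.inv_mem (hDH hd)) hh))
    change _ ∈ H
    convert this using 1
    group
  ext z
  have := mem_normalizer_iff.1 (inv_mem ha) (b⁻¹ * z * b)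
  simp only [mem_map_conj]
  rw [this]
  convert Iff.rfl using 2
  group

theorem Good.of_equiv {G' : Type*} [Group G'] [Finite G] (e : G ≃* G') (h : Good G) : Good G' := by
  obtain ⟨S, h1, h2⟩ := h
  have : Finite G' := Finite.of_equiv _ e.toEquiv
  let S' : Sylow 2 G' := S.mapSurjective (f := e.toMonoidHom) e.surjective
  have hS : ∀ x, e x ∈ (S' : Subgroup G') ↔ x ∈ (S : Subgroup G) := fun x =>
    ⟨fun ⟨y, hy, h⟩ => e.injective h ▸ hy, fun h => ⟨x, h, rfl⟩⟩
  have hN : ∀ x, e x ∈ normalizer ((S' : Subgroup G') : Set G') →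
      x ∈ normalizer ((S : Subgroup G) : Set G) := fun x hx => by
    refine mem_normalizer_fintype fun y hy => ?_
    have := (mem_normalizer_iff.1 hx (e y)).1 ((hS y).2 hy)
    rwa [← map_inv, ← map_mul, ← map_mul, hS] at this
  refine ⟨S', fun a ha b hb => ?_, fun H hH => ?_⟩
  · obtain ⟨a, rfl⟩ := e.surjective a
    obtain ⟨b, rfl⟩ := e.surjective b
    have := (hS _).2 (h1 a (hN a ha) b (hN b hb))
    simpa using this
  · exact IsPronormal.of_comap e.toMonoidHom e.surjective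
      (h2 _ fun x hx => hH ((hS x).2 hx))

/-- Overgroups of a four-group Sylow subgroup with normaliser of index three. -/
theorem eq_of_four [Finite G] (V : Sylow 2 G) (hsq : ∀ v ∈ (V : Subgroup G), v * v = 1)
    {a b : G} (ha : a ∈ (V : Subgroup G)) (hb : b ∈ (V : Subgroup G)) (ha1 : a ≠ 1) (hb1 : b ≠ 1)
    (hab : a ≠ b) {g : G} (hg : g ∈ normalizer ((V : Subgroup G) : Set G))
    (hfix : ∀ v ∈ (V : Subgroup G), g * v * g⁻¹ = v → v = 1)
    (hT : ∀ (r : ℕ) (R : Subgroup G), r.Prime → r ≠ 2 → IsPGroup r R → ∀ x ∈ R, ∀ y ∈ R,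
      x ≠ 1 → y ≠ 1 → ∀ u v : G, u * u = 1 → v * v = 1 → u ≠ 1 → v ≠ 1 → Commute u x →
      Commute v y → u = v)
    (H K : Subgroup G) (hH : (V : Subgroup G) ≤ H) (hHK : H ≤ K)
    (hgK : ∀ x ∈ H, g * x * g⁻¹ ∈ K)
    (hNK : ∀ n ∈ normalizer ((V : Subgroup G) : Set G), n ∈ K → n ∈ (V : Subgroup G)) :
    H = V := by
  have hcomm : ∀ u ∈ (V : Subgroup G), ∀ v ∈ (V : Subgroup G), u * v = v * u := by
    intro u hu v hv
    have h1 := inv_eq_of_mul_eq_one_right (hsq _ (mul_mem hu hv))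
    rw [mul_inv_rev, inv_eq_of_mul_eq_one_right (hsq u hu),
      inv_eq_of_mul_eq_one_right (hsq v hv)] at h1
    exact h1.symm
  have hVK : (V : Subgroup G) ≤ K := hH.trans hHK
  have hfus : ∀ k ∈ K, ∀ u ∈ (V : Subgroup G), k * u * k⁻¹ ∈ (V : Subgroup G) →
      k * u * k⁻¹ = u := by
    intro k hk u hu hu'
    obtain ⟨n, hn, e⟩ := (V.subtype hVK).conj_eq_normalizer_conj_of_mem_centralizer
      ⟨u, hVK hu⟩ ⟨k, hk⟩⁻¹
      (fun z hz => Subtype.ext (hcomm _ hz _ hu))
      (fun z hz => Subtype.ext (by simpa using hcomm _ hz _ hu'))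
    have hn' : (n : G) ∈ (V : Subgroup G) := by
      refine hNK n ?_ n.2
      rw [mem_normalizer_iff]
      intro z
      constructor
      · intro hz
        exact (mem_normalizer_iff.1 hn ⟨z, hVK hz⟩).1 hz
      · intro hz
        have hzK : z ∈ K := by
          have := K.mul_mem (K.mul_mem (K.inv_mem n.2) (hVK hz)) n.2
          convert this using 1
          group
        exact (mem_normalizer_iff.1 hn ⟨z, hzK⟩).2 hz
    have e' := congrArg Subtype.val e
    simp only [inv_inv, coe_mul, coe_inv] at e'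
    rw [e', mul_assoc, ← hcomm _ hn' _ hu, inv_mul_cancel_left]
  have hcen : ∀ v ∈ (V : Subgroup G), v ≠ 1 → ∀ y ∈ H, Commute y v → y ∈ (V : Subgroup G) := by
    intro v hv hv1 y hy hyv
    set C := H ⊓ centralizer {v} with hC
    have hVC : (V : Subgroup G) ≤ C := fun z hz =>
      ⟨hH hz, mem_centralizer_singleton_iff.2 (hcomm _ hz _ hv)⟩
    have hp : IsPGroup 2 C := by
      rw [IsPGroup.iff_card]
      refine ⟨_, Nat.eq_prime_pow_of_unique_prime_dvd Nat.card_pos.ne' ?_⟩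
      intro r hr hrd
      by_contra hr2
      have : Fact r.Prime := ⟨hr⟩
      obtain ⟨x, hx⟩ := exists_prime_orderOf_dvd_card' r hrd
      have hxo : orderOf (x : G) = r := by rw [Subgroup.orderOf_coe, hx]
      have hx1 : (x : G) ≠ 1 := by
        intro h; rw [h, orderOf_one] at hxo; exact hr.one_lt.ne hxo
      have hxv : Commute v x := (mem_centralizer_singleton_iff.1 x.2.2).symm
      have hx'K : g * x * g⁻¹ ∈ K := hgK x x.2.1
      have hpg : ∀ z : K, orderOf (z : G) = r → IsPGroup r (zpowers z) := fun z hz => by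
        rw [Subgroup.orderOf_coe] at hz
        exact IsPGroup.of_card (n := 1) (by rw [Nat.card_zpowers, hz, pow_one])
      obtain ⟨R1, hR1⟩ := (hpg ⟨x, hHK x.2.1⟩ hxo).exists_le_sylow
      obtain ⟨R2, hR2⟩ := (hpg ⟨_, hx'K⟩ (by
        change orderOf (g * x * g⁻¹) = r
        rw [← hxo]
        exact (MulAut.conj g).orderOf_eq (x : G))).exists_le_sylow
      obtain ⟨k, hk⟩ := MulAction.exists_smul_eq K R1 R2
      have h1 : k * ⟨x, hHK x.2.1⟩ * k⁻¹ ∈ (R2 : Subgroup K) := by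
        rw [← hk]
        exact ⟨_, hR1 (mem_zpowers _), rfl⟩
      have h2 := hT r ((R2 : Subgroup K).map K.subtype) hr hr2 (R2.isPGroup'.map _) _ ⟨_, h1, rfl⟩
        _ ⟨_, hR2 (mem_zpowers _), rfl⟩ (by simpa using hx1) (by simpa using hx1)
        (k * v * (k : G)⁻¹) (g * v * g⁻¹)
        (by rw [conj_mul, hsq v hv]; simp) (by rw [conj_mul, hsq v hv]; simp)
        (by simpa using hv1) (by simpa using hv1)
        (hxv.map (MulAut.conj (k : G))) (hxv.map (MulAut.conj g))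
      have h3 : g * v * g⁻¹ ∈ (V : Subgroup G) := (mem_normalizer_iff.1 hg v).1 hv
      have h4 := hfus k k.2 v hv (h2 ▸ h3)
      exact hv1 (hfix v hv (h2 ▸ h4))
    rw [← V.is_maximal' hp hVC]
    exact ⟨hy, mem_centralizer_singleton_iff.2 hyv⟩
  refine le_antisymm (fun h hh => ?_) hH
  have hu' : h * a * h⁻¹ ∈ H := H.mul_mem (H.mul_mem hh (hH ha)) (H.inv_mem hh)
  have hc : ∀ k : ℕ, (h * a * h⁻¹ * b) ^ k ∈ H := fun k => pow_mem (H.mul_mem hu' (hH hb)) k
  rcases dihedral_cases (u := h * a * h⁻¹) (v := b) (by rw [conj_mul, hsq a ha]; simp)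
    (hsq b hb) with ⟨k, hk⟩ | ⟨k, hk1, hk2, hk3⟩
  · exfalso
    have e : ((h * a * h⁻¹ * b) ^ k * h) * a * ((h * a * h⁻¹ * b) ^ k * h)⁻¹ = b := by
      refine Eq.trans ?_ hk
      simp only [mul_assoc, mul_inv_rev]
    have := hfus _ (hHK (H.mul_mem (hc k) hh)) a ha (by rw [e]; exact hb)
    exact hab (this.symm.trans e)
  · have h1 := hcen b hb hb1 _ (hc k) hk3
    have h2 := hcen _ h1 hk1 _ hu' hk2.symm
    have h3 := hfus h (hHK hh) a ha h2
    exact hcen a ha ha1 h hh (mul_inv_eq_iff_eq_mul.1 h3)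

theorem exists_sylow_of_cube [Finite G] (S : Subgroup G) (hS : IsPGroup 2 S)
    (h : ∀ g ∈ normalizer (S : Set G), g ^ 3 ∈ S) : ∃ P : Sylow 2 G, (P : Subgroup G) = S := by
  obtain ⟨P, hP⟩ := hS.exists_le_sylow
  refine ⟨P, le_antisymm ?_ hP⟩
  by_contra hne
  have := P.isPGroup'.isNilpotent
  have h1 := Group.normalizerCondition_of_isNilpotent (G := P) (S.subgroupOf P)
    (lt_top_iff_ne_top.2 fun e => hne (subgroupOf_eq_top.1 e))
  obtain ⟨g, hg, hg'⟩ := SetLike.exists_of_lt h1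
  have h2 : (g : G) ∈ normalizer (S : Set G) := mem_normalizer_fintype fun y hy =>
    (mem_normalizer_iff.1 hg ⟨y, hP hy⟩).1 hy
  obtain ⟨k, hk⟩ := P.isPGroup' g
  have hk' : (g : G) ^ 2 ^ k = 1 := congrArg Subtype.val hk
  obtain ⟨a, b, hab⟩ : ∃ a b : ℤ, a * (3 : ℕ) + b * (2 ^ k : ℕ) = 1 :=
    Nat.isCoprime_iff_coprime.2 (Nat.Coprime.pow_right k (by norm_num))
  have : (g : G) = ((g : G) ^ 3) ^ a * ((g : G) ^ 2 ^ k) ^ b := by
    rw [← zpow_natCast, ← zpow_natCast (g : G), ← zpow_mul, ← zpow_mul,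
      ← zpow_add, mul_comm, mul_comm _ b, hab, zpow_one]
  refine hg' ?_
  change (g : G) ∈ S
  rw [this, hk', one_zpow, mul_one]
  exact zpow_mem (h _ h2) a

theorem cube_mem {S : Subgroup G} {y s : G} (hy : y ∈ normalizer (S : Set G)) (h3 : y ^ 3 ∈ S)
    (hs : s ∈ S) : (s * y) ^ 3 ∈ S := by
  have h1 := (mem_normalizer_iff.1 hy s).1 hs
  have h2 := (mem_normalizer_iff.1 hy _).1 h1
  have := S.mul_mem (S.mul_mem (S.mul_mem hs h1) h2) h3
  convert this using 1
  simp only [pow_succ, pow_zero, one_mul, mul_assoc, inv_mul_cancel_left]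

theorem commute_of_burnside [Finite G] {m : G} (hm : m * m = 1)
    (h1 : ∀ (g : G) (k : ℕ), g ^ 2 ^ k = 1 → g * g = 1)
    (h2 : ∀ g : G, Commute g m → ∃ k, g ^ 2 ^ k = 1)
    (h3 : ∀ g : G, Commute (g * m * g⁻¹) m → Commute g m) (n n' : G) :
    Commute (m * (n * m * n⁻¹)) (m * (n' * m * n'⁻¹)) := by
  obtain ⟨R, hR⟩ := (isPGroup_zpowers_of_pow (p := 2) (k := 1) (x := m)
    (by rw [pow_one, sq, hm])).exists_le_sylow
  have hmR : m ∈ (R : Subgroup G) := hR (mem_zpowers m)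
  have hsq : ∀ v ∈ (R : Subgroup G), v * v = 1 := fun v hv => by
    obtain ⟨k, hk⟩ := R.isPGroup' ⟨v, hv⟩
    exact h1 v k (congrArg Subtype.val hk)
  have hcomm : ∀ u ∈ (R : Subgroup G), ∀ v ∈ (R : Subgroup G), u * v = v * u := by
    intro u hu v hv
    have h1 := inv_eq_of_mul_eq_one_right (hsq _ (mul_mem hu hv))
    rw [mul_inv_rev, inv_eq_of_mul_eq_one_right (hsq u hu),
      inv_eq_of_mul_eq_one_right (hsq v hv)] at h1
    exact h1.symm
  have hC : ∀ g, Commute g m → g ∈ (R : Subgroup G) := fun g hg => by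
    have hp : IsPGroup 2 (centralizer ({m} : Set G)) := by
      rintro ⟨x, hx⟩
      obtain ⟨k, hk⟩ := h2 x (mem_centralizer_singleton_iff.1 hx)
      exact ⟨k, Subtype.ext hk⟩
    rw [← R.is_maximal' hp fun v hv => mem_centralizer_singleton_iff.2 (hcomm v hv m hmR)]
    exact mem_centralizer_singleton_iff.2 hg
  have hN : normalizer (R : Set G) ≤ centralizer (R : Set G) := fun g hg v hv =>
    hcomm v hv g (hC g (h3 g (hcomm _ ((mem_normalizer_iff.1 hg m).1 hmR) _ hmR)))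
  set φ := MonoidHom.transferSylow R hN with hφ
  have hd := (MonoidHom.ker_transferSylow_isComplement' R hN).disjoint
  have hker : ∀ n : G, m * (n * m * n⁻¹) ∈ φ.ker := fun n => by
    rw [MonoidHom.mem_ker, map_mul, map_mul, map_mul, map_inv]
    apply Subtype.ext
    have := hcomm _ (φ n).2 _ (φ m).2
    simp only [coe_mul, coe_inv, coe_one]
    rw [this, mul_inv_cancel_right]
    exact hsq _ (φ m).2
  have hfp : MonoidHom.FixedPointFree (MulAut.conjNormal m : MulAut φ.ker) := fun g hg => by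
    have h4 : m * g * m⁻¹ = g := congrArg Subtype.val hg
    exact Subtype.ext (disjoint_def.1 hd g.2 (hC g (mul_inv_eq_iff_eq_mul.1 h4).symm))
  have := hfp.commute_all_of_involutive (fun g => by
    rw [← MulAut.mul_apply, ← map_mul, hm, map_one, MulAut.one_apply]) ⟨_, hker n⟩ ⟨_, hker n'⟩
  exact congrArg Subtype.val this

end

section Tree

open Cfsg.Agent.SymAlt Equiv

variable {n : ℕ}

theorem exists_tree_move (k : ℕ) (x y : Fin n)
    (hy : (y : ℕ) / 2 ^ (k + 1) ≠ n / 2 ^ (k + 1)) :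
    ∃ τ ∈ tree n, (τ y : ℕ) / 2 ^ k ≠ (y : ℕ) / 2 ^ k ∧
      ((x : ℕ) / 2 ^ (k + 1) ≠ (y : ℕ) / 2 ^ (k + 1) → τ x = x) := by
  have h1 : (y : ℕ) / 2 ^ (k + 1) < n / 2 ^ (k + 1) :=
    lt_of_le_of_ne (Nat.div_le_div_right y.is_lt.le) hy
  have h2 : 2 ^ k < 2 ^ (k + 1) := Nat.pow_lt_pow_right (by norm_num) (by omega)
  refine ⟨_, xorPerm_mem_tree h1 h2, ?_, fun h => ?_⟩
  · rw [xorPerm_val_of_eq _ _ rfl]
    exact xor_two_pow_div_ne _ _
  · rw [xorPerm_apply_of_ne _ _ h]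

theorem last_succ_iff' (k : ℕ) (x : Fin n) :
    (x : ℕ) / 2 ^ (k + 1) = n / 2 ^ (k + 1) ↔
      ∀ r ∈ tree n, (r x : ℕ) / 2 ^ k = (x : ℕ) / 2 ^ k := by
  constructor
  · intro h r hr
    have h1 := (hr (k + 1)).2 x h
    have h2 := tree_last hr k x
    have h3 : (x : ℕ) / 2 ^ k ≤ n / 2 ^ k := Nat.div_le_div_right x.is_lt.le
    have h4 : (r x : ℕ) / 2 ^ k ≤ n / 2 ^ k := Nat.div_le_div_right (r x).is_lt.le
    rw [div_pow_succ, div_pow_succ] at h h1
    omega
  · intro h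
    by_contra hx
    obtain ⟨τ, hτ, h1, -⟩ := exists_tree_move k x x hx
    exact h1 (h τ hτ)

theorem rel_succ_iff' (k : ℕ) (x y : Fin n)
    (hy : (y : ℕ) / 2 ^ (k + 1) ≠ n / 2 ^ (k + 1)) :
    (x : ℕ) / 2 ^ (k + 1) = (y : ℕ) / 2 ^ (k + 1) ↔
      ∀ r ∈ tree n, (r x : ℕ) / 2 ^ k = (x : ℕ) / 2 ^ k →
        (r y : ℕ) / 2 ^ k = (y : ℕ) / 2 ^ k := by
  constructor
  · intro h r hr h1
    have h2 := (hr (k + 1)).1 x y h
    have h3 := tree_rel hr k x y
    rw [div_pow_succ, div_pow_succ] at h h2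
    omega
  · intro h
    by_contra hx
    obtain ⟨τ, hτ, h1, h2⟩ := exists_tree_move k x y hy
    exact h1 (h τ hτ (by rw [h2 hx]))

theorem mem_tree_of_normalizes' {g : Perm (Fin n)}
    (hg : ∀ r : Perm (Fin n), r ∈ tree n → g * r * g⁻¹ ∈ tree n) : g ∈ tree n := by
  have hg' := mem_normalizer_iff.1 (mem_normalizer_fintype (S := (tree n : Set (Perm (Fin n)))) hg)
  have key : ∀ k : ℕ, (∀ x y : Fin n, (x : ℕ) / 2 ^ k = (y : ℕ) / 2 ^ k ↔
      (g x : ℕ) / 2 ^ k = (g y : ℕ) / 2 ^ k) ∧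
      (∀ x : Fin n, (x : ℕ) / 2 ^ k = n / 2 ^ k ↔ (g x : ℕ) / 2 ^ k = n / 2 ^ k) := by
    intro k
    induction k with
    | zero =>
      simp only [pow_zero, Nat.div_one, ← Fin.ext_iff, g.apply_eq_iff_eq, implies_true, true_and]
      intro x
      have := x.is_lt
      have := (g x).is_lt
      omega
    | succ k ih =>
      have hconj : ∀ r ∈ tree n, g⁻¹ * r * g ∈ tree n := by
        intro r hr
        refine (hg' _).2 ?_
        simpa [mul_assoc] using hr
      have hlast : ∀ x : Fin n, (x : ℕ) / 2 ^ (k + 1) = n / 2 ^ (k + 1) ↔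
          (g x : ℕ) / 2 ^ (k + 1) = n / 2 ^ (k + 1) := by
        intro x
        rw [last_succ_iff', last_succ_iff']
        constructor
        · intro h r hr
          have := h _ (hconj r hr)
          rw [ih.1] at this
          simpa using this
        · intro h r hr
          have := h _ (hg r hr)
          rw [ih.1]
          simpa using this
      refine ⟨fun x y => ?_, hlast⟩
      by_cases hy : (y : ℕ) / 2 ^ (k + 1) = n / 2 ^ (k + 1)
      · rw [hy, (hlast y).1 hy]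
        exact hlast x
      · rw [rel_succ_iff' k x y hy, rel_succ_iff' k _ _ (fun h => hy ((hlast y).2 h))]
        constructor
        · intro h r hr h1
          have := h _ (hconj r hr) (by rw [ih.1]; simpa using h1)
          rw [ih.1] at this
          simpa using this
        · intro h r hr h1
          have := h _ (hg r hr) (by rw [ih.1] at h1; simpa using h1)
          rw [ih.1]
          simpa using this
  exact fun k => ⟨fun x y => ((key k).1 x y).1, fun x => ((key k).2 x).1⟩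

theorem tree_trans (k : ℕ) (x y : Fin (2 ^ k)) : ∃ σ ∈ tree (2 ^ k), σ x = y := by
  have hx : (x : ℕ) / 2 ^ k = 0 := Nat.div_eq_of_lt x.is_lt
  have hy : (y : ℕ) / 2 ^ k = 0 := Nat.div_eq_of_lt y.is_lt
  obtain ⟨σ, h1, h2, -⟩ := exists_tree_apply_eq (k := k) (x := x) (y := y) (hx.trans hy.symm)
    (by rw [hx, Nat.div_self (by positivity)]; exact Nat.one_pos)
  exact ⟨σ, h1, h2⟩

end Tree

end Cfsg.Agent.Pron
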