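import Cfsg.Agent.Pron.Two

/-!
Overgroups of the Sylow 2-subgroup `Q₈ ≀ T` in the unitary group over the quaternions.
-/

set_option autoImplicit false

namespace Cfsg.Agent.Pron

open Quaternion Subgroup Matrix Equiv Cfsg.Agent.GLn

variable {F : Type*} [Field F] {ι : Type*} [Fintype ι] [DecidableEq ι] [NeZero (2 : F)] [Finite F]

instance instFiniteQuat : Finite ℍ[F] := Finite.of_equiv _ (QuaternionAlgebra.equivProd _ _ _).symm

variable {T : Subgroup (Perm ι)} {H : Subgroup (UM ι F)}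

omit [NeZero (2 : F)] [Finite F] in
theorem conj_mem_iff {h x : UM ι F} (hh : h ∈ H) : h * x * h⁻¹ ∈ H ↔ x ∈ H := by
  rw [H.mul_mem_cancel_right (H.inv_mem hh), H.mul_mem_cancel_left hh]

theorem exists_conj_le {G : Type*} [Group G] [Finite G] (S : Sylow 2 G) {H D : Subgroup G}
    (hH : (S : Subgroup G) ≤ H) (hD : IsPGroup 2 D) :
    ∃ k ∈ H, ∀ x ∈ D, x ∈ H → k * x * k⁻¹ ∈ (S : Subgroup G) := by
  obtain ⟨R, hR⟩ := (hD.comap_subtype (K := H)).exists_le_sylow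
  obtain ⟨k, hk⟩ := MulAction.exists_smul_eq H R (S.subtype hH)
  refine ⟨k, k.2, fun x hx hx' => ?_⟩
  have : k * ⟨x, hx'⟩ * k⁻¹ ∈ (S.subtype hH : Subgroup H) := by
    rw [← hk]
    exact ⟨_, hR hx, rfl⟩
  exact this

theorem half (hns : ¬ IsSquare (2 : F)) (hT : IsPGroup 2 T) (hT1 : ∀ x y, ∃ σ ∈ T, σ x = y)
    (S : Sylow 2 (UM ι F)) (hS : (S : Subgroup (UM ι F)) = wr (Q8 F) T) (hH : wr (Q8 F) T ≤ H)
    (hA : ∀ j c, sg j c ∈ H → c ∈ Q8 F) (hx : (dg fun _ => qo) ∉ H) {h : UM ι F} (hh : h ∈ H)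
    (j l : ι) : 2 * normSq (h.1 j l) ≠ 1 := by
  intro e
  have e' : 2 * normSq (star (h.1 j l)) = 1 := by rwa [normSq_star]
  have hsg : ∀ j, ∀ c ∈ Q8 F, sg j c ∈ H := fun j c hc => hH (sg_mem_wr j hc)
  obtain ⟨ρ, r1, r2, -⟩ := exists_frame h j l (χ := -h.1 j l)
    (by rw [normSq_neg]; linear_combination e) (by
      rw [normSq_neg]; intro h0; rw [h0] at e; simp at e)
  have k1 : ∀ c, ρ (Cm (cj _ e c)) ∈ H ↔ c ∈ Q8 F := fun c => by
    rw [r2 c _ (Cm_cj _ e c), conj_mem_iff hh]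
    exact ⟨hA l c, hsg l c⟩
  have k2 : ρ (Cm (-1)) ∈ H := by
    have : cj _ e (-1) = -1 := Subtype.ext (by
      have := congrArg Subtype.val (map_one (cj _ e))
      rw [cj_val] at this ⊢
      simpa using this)
    rw [← this, k1]
    exact neg_one_mem_Q8
  have k0 : ∀ c ∈ Q8 F, ρ (sg 0 c) ∈ H := fun c hc => r1 c ▸ hsg j c hc
  have k3 : ∀ c, ρ (sg 1 c) = ρ (Cm (-1)) * sg j c * (ρ (Cm (-1)))⁻¹ := fun c => by
    rw [← Cm_swap, map_mul, map_mul, map_inv, r1]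
  have k4 : ∀ c ∈ Q8 F, ρ (sg 1 c) ∈ H := fun c hc => by
    rw [k3, conj_mem_iff k2]
    exact hsg j c hc
  have k5 : ∀ d ∈ Q8 F, d.1.re = 0 → ρ (Cm d) ∈ H := fun d hd h0 => by
    rw [← cj_cj _ e e' d, k1]
    by_contra hc
    refine (coords_ne hns (mem_normalizer_fintype fun c hc => ?_) hc).1 ?_
    · change _ ∈ Q8 F
      rw [← k1, map_mul, map_mul, map_inv, cj_cj, ← Cm_conj, map_mul, map_mul, map_inv,
        conj_mem_iff (by rw [map_mul]; exact H.mul_mem (k0 d hd) (k4 d hd)), k1]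
      exact hc
    · simp [cj_val, h0]
      right
      ring
  have k6 : sg j qo * (ρ (Cm (-1)) * sg j qo * (ρ (Cm (-1)))⁻¹) ∈ H := by
    rw [← k3, ← r1, ← map_mul, ← Cm_word]
    simp only [map_mul]
    exact H.mul_mem (H.mul_mem (H.mul_mem (H.mul_mem (k0 _ neg_one_mem_Q8) (k4 _ qi_mem))
      (k5 _ qj_mem (by simp [qj_val]))) (k0 _ (by simp [mem_Q8]))) (k5 _ qi_mem (by simp [qi_val]))
  have k7 : Commute (ρ (sg 0 qi)) (ρ (sg 1 qi)) :=
    ((Pi.mulSingle_commute (f := fun _ => UQ F) (by decide : (0 : Fin 2) ≠ 1) qi qi).map dg).map ρ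
  have hp : ∀ i, IsPGroup 2 (zpowers (ρ (sg i qi))) := fun i =>
    isPGroup_zpowers_of_pow (k := 2) (by
      rw [← map_pow, ← map_pow, show 2 ^ 2 = 4 from rfl, Q8_pow_four qi_mem, map_one, map_one])
  have hD := (hp 0).to_sup_of_normal_right' (hp 1) (zpowers_le.2 (mem_normalizer_fintype (by
    rintro _ ⟨n, rfl⟩
    exact ⟨n, by simp only; rw [(k7.zpow_right n).eq, mul_inv_cancel_right]⟩)))
  obtain ⟨k, hk, k8⟩ := exists_conj_le S (hS ▸ hH) hD
  rw [hS] at k8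
  have k9 : ∀ g ∈ H, g * sg j qi * g⁻¹ ∈ wr (Q8 F) T →
      ∃ a, ∃ c ∈ Q8 F, g * sg j qo * g⁻¹ = sg a c * sg a qo := fun g hg hg' => by
    obtain ⟨σ, -, b, -, hb⟩ := hg'
    obtain ⟨a, ha⟩ := col_of_mon (by simp [qi_val]) hb
    obtain ⟨p, -, hp⟩ := conj_sg_of_col ha
    refine ⟨a, _, conj_qo hns (p := p) (mem_normalizer_fintype fun c hc => hA a _ ?_), ?_⟩
    · rw [← hp, conj_mem_iff hg]
      exact hsg j c hc
    · rw [hp, ← map_mul, inv_mul_cancel_right]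
  obtain ⟨a, c, hc, e1⟩ := k9 k hk (r1 qi ▸ k8 _ (mem_sup_left (mem_zpowers _)) (k0 _ qi_mem))
  obtain ⟨a', c', hc', e2⟩ := k9 (k * ρ (Cm (-1))) (H.mul_mem hk k2) (by
    have := k8 _ (mem_sup_right (mem_zpowers _)) (k4 _ qi_mem)
    rw [k3] at this
    simpa only [mul_assoc, _root_.mul_inv_rev] using this)
  have k10 := (conj_mem_iff hk).2 k6
  have e3 : k * (sg j qo * (ρ (Cm (-1)) * sg j qo * (ρ (Cm (-1)))⁻¹)) * k⁻¹ =
      sg a c * (sg a qo * sg a' c' * (sg a qo)⁻¹) * (sg a qo * sg a' qo) := by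
    calc _ = (k * sg j qo * k⁻¹) * (k * ρ (Cm (-1)) * sg j qo * (k * ρ (Cm (-1)))⁻¹) := by
          group
      _ = _ := by rw [e1, e2]; group
  rw [e3, H.mul_mem_cancel_left] at k10
  · exact hx (avg hT hT1 hH k10)
  · refine H.mul_mem (hsg a c hc) ?_
    rw [sg_eq, sg_eq, ← map_inv, ← map_mul, ← map_mul]
    refine hH (dg_mem_wr fun i => ?_)
    by_cases h1 : i = a <;> by_cases h2 : i = a'
    · subst h1; subst h2
      simpa using (mem_normalizer_iff.1 qo_mem_normalizer _).1 hc'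
    · subst h1; simp [h2]
    · subst h2; simpa [h1] using hc'
    · simp [h1, h2]

omit [Finite F] [NeZero (2 : F)] in
theorem kap_el {φ χ : ℍ[F]} {a b : F} (e1 : normSq χ = 1 - normSq φ)
    (f1 : φ * star χ = qm a b 0 0) {n : UQ F}
    (hn : n.1 = qm 0 (1 - 2 * normSq φ) (2 * b) (-(2 * a))) :
    ((dg fun _ => qi⁻¹) * kap n).1 = el ![φ, χ] (-1 : UQ F).1 := by
  have f2 := congrArg star f1
  rw [star_mul, star_star] at f2
  have f3 : ∀ x y : ℍ[F], x * ((-1 : UQ F).1 - 1) * y = (-2 : F) • (x * y) := fun x y => by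
    simp only [uq_neg, OneMemClass.coe_one, mul_sub, sub_mul, mul_neg, neg_mul, mul_one]
    module
  ext1 r s
  rw [el_apply, f3]
  fin_cases r <;> fin_cases s <;>
    simp only [Fin.zero_eta, Fin.mk_one, cons_val_zero, cons_val_one, self_mul_star, f1, f2,
      e1] <;> ext <;> simp [dg_val, kap_val, hn, qi_val, uq_inv] <;> ring

omit [Finite F] [NeZero (2 : F)] in
theorem kap_conj {n n' : UQ F} {a b c : F} (hn : n.1 = qm 0 a b c) (hn' : n'.1 = qm 0 a (-c) b) :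
    kap n' = sg 0 qi * kap n * (sg 0 qi)⁻¹ := by
  rw [eq_mul_inv_iff_mul_eq]
  apply Subtype.ext
  ext r s <;> fin_cases r <;> fin_cases s <;>
    simp [kap_val, hn, hn', qi_val, sg_zero_val, mul_apply, Fin.sum_univ_two]

omit [Finite F] [NeZero (2 : F)] in
theorem kap_qi : (dg fun _ => qi) * kap qi = (sg 0 (-1) : UM (Fin 2) F) := by
  apply Subtype.ext
  ext r s <;> fin_cases r <;> fin_cases s <;> simp [dg_val, kap_val, qi_val, sg_zero_val]

omit [Finite F] [NeZero (2 : F)] in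
theorem kap_diag {g : UQ F} (a3 : g.1.imJ = 0) (a2 : g.1.imK = 0) : kap g = dg ![g, g⁻¹] := by
  apply Subtype.ext
  ext r s <;> fin_cases r <;> fin_cases s <;> simp [dg_val, kap_val, a2, a3, uq_inv]

theorem zero_one (hns : ¬ IsSquare (2 : F)) (hH : wr (Q8 F) T ≤ H)
    (hA : ∀ j c, sg j c ∈ H → c ∈ Q8 F) (hf : ∀ h ∈ H, ∀ j l, 2 * normSq (h.1 j l) ≠ 1)
    {h : UM ι F} (hh : h ∈ H) (j l : ι) : normSq (h.1 j l) = 0 ∨ normSq (h.1 j l) = 1 := by
  by_contra hc
  rw [not_or] at hc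
  obtain ⟨h0, h1⟩ := hc
  have h2 := NeZero.ne (2 : F)
  have hsg : ∀ j, ∀ c ∈ Q8 F, sg j c ∈ H := fun j c hc => hH (sg_mem_wr j hc)
  obtain ⟨a, b, hab⟩ := exists_sq_add_sq (normSq (h.1 j l) * (1 - normSq (h.1 j l)))
  have e1 : normSq ((normSq (h.1 j l))⁻¹ • (qm a (-b) 0 0 * h.1 j l)) = 1 - normSq (h.1 j l) := by
    rw [normSq_smul, map_mul, normSq_eq (qm _ _ _ _)]
    simp only [qm_re, qm_imI, qm_imJ, qm_imK]
    field_simp
    linear_combination hab
  obtain ⟨ρ, r1, r2, r3⟩ := exists_frame h j l e1 (by rw [e1]; exact sub_ne_zero.2 (Ne.symm h1))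
  let I : UM (Fin 2) F := dg fun _ => qi
  have hI : ∀ r : ℤ, I ^ r = dg fun _ => qi ^ r := fun r => (map_zpow dg _ r).symm
  let M : Subgroup (UQ F) :=
    { carrier := {g | ∃ r : ℤ, ρ (I ^ r * kap g) ∈ H}
      one_mem' := ⟨0, by simp⟩
      mul_mem' := by
        rintro g g' ⟨r, hr⟩ ⟨s, hs⟩
        refine ⟨r + s, ?_⟩
        have := H.mul_mem hr hs
        rwa [← map_mul, mul_assoc, ← mul_assoc (kap g), ← ((commute_kap g).zpow_left s).eq,
          mul_assoc, ← map_mul kap, ← mul_assoc, ← _root_.zpow_add] at this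
      inv_mem' := by
        rintro g ⟨r, hr⟩
        refine ⟨-r, ?_⟩
        have := H.inv_mem hr
        rwa [← map_inv, _root_.mul_inv_rev, ← map_inv, ← _root_.zpow_neg,
          ← ((commute_kap g⁻¹).zpow_left (-r)).eq] at this }
  let n : UQ F := ⟨qm 0 (1 - 2 * normSq (h.1 j l)) (2 * b) (-(2 * a)), mem_uq.2 (by
    rw [normSq_eq (qm _ _ _ _)]
    simp only [qm_re, qm_imI, qm_imJ, qm_imK]
    linear_combination 4 * hab)⟩
  let n' : UQ F := ⟨qm 0 (1 - 2 * normSq (h.1 j l)) (-(-(2 * a))) (2 * b), mem_uq.2 (by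
    rw [normSq_eq (qm _ _ _ _)]
    simp only [qm_re, qm_imI, qm_imJ, qm_imK]
    linear_combination 4 * hab)⟩
  have hn : ρ (I ^ (-1 : ℤ) * kap n) ∈ H := by
    rw [r2 (-1) _ ?_, conj_mem_iff hh]
    · exact hsg l _ neg_one_mem_Q8
    · rw [hI, _root_.zpow_neg_one]
      refine kap_el e1 ?_ rfl
      rw [Quaternion.star_smul, star_mul, mul_smul_comm, ← mul_assoc, self_mul_star,
        coe_mul_eq_smul, smul_smul, inv_mul_cancel₀ h0, one_smul]
      ext <;> simp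
  have hn' : ρ (I ^ (-1 : ℤ) * kap n') ∈ H := by
    have : I ^ (-1 : ℤ) * kap n' = sg 0 qi * (I ^ (-1 : ℤ) * kap n) * (sg 0 qi)⁻¹ := by
      have hc : Commute (sg 0 qi) (I ^ (-1 : ℤ)) :=
        Commute.zpow_right (Commute.map (show Commute (Pi.mulSingle (0 : Fin 2) qi) (fun _ => qi) from
          funext fun i => by fin_cases i <;> simp) dg) _
      rw [kap_conj (n := n) (n' := n') rfl rfl, ← mul_assoc (sg 0 qi), hc.eq]
      simp only [mul_assoc]
    rw [this, map_mul, map_mul, map_inv, r1, conj_mem_iff (hsg j _ qi_mem)]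
    exact hn
  have key := rank_two hns M ⟨1, by
      rw [zpow_one, kap_qi, r1]
      exact hsg j _ neg_one_mem_Q8⟩ (by
      rintro g ⟨r, hr⟩ hg
      have e2 := congrArg QuaternionAlgebra.imJ (congrArg Subtype.val hg)
      have e3 := congrArg QuaternionAlgebra.imK (congrArg Subtype.val hg)
      simp [qi_val] at e2 e3
      have a2 : g.1.imK = 0 := mul_left_cancel₀ h2 (by linear_combination e2)
      have a3 : g.1.imJ = 0 := mul_left_cancel₀ h2 (by linear_combination -e3)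
      have a4 := kap_diag a3 a2
      refine Q8_pow_four ?_
      by_contra hc
      refine (coords_ne hns ?_ hc).2 a3
      refine (Subgroup.mul_mem_cancel_left _ (le_normalizer (zpow_mem qi_mem r))).1
        (mem_normalizer_fintype fun c hc => hA j _ ?_)
      have a5 := (conj_mem_iff hr).2 (r1 c ▸ hsg j c hc)
      rw [← map_inv, ← map_mul, ← map_mul, hI, a4, sg_eq, ← map_mul, ← map_inv, ← map_mul,
        ← map_mul] at a5
      rw [← r1, sg_eq]
      convert a5 using 3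
      funext i
      fin_cases i <;> simp) (by
      rintro g ⟨r, hr⟩
      have a1 := hf _ hr j j
      rw [r3, hI] at a1
      simp only [Submonoid.coe_mul, dg_val, diagonal_mul, map_mul, uq_norm, one_mul, kap_val,
        of_apply, cons_val', cons_val_zero, normSq_eq (qm _ _ _ _), qm_re, qm_imI, qm_imJ,
        qm_imK] at a1
      simpa using a1) (n := n) (n' := n') ⟨-1, hn⟩ ⟨-1, hn'⟩ rfl rfl
  rcases key with key | key
  · exact hf h hh j l (by linear_combination -key)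
  · refine mul_ne_zero (mul_ne_zero h2 h2) (mul_ne_zero h0 (sub_ne_zero.2 (Ne.symm h1))) ?_
    linear_combination key - 4 * hab

omit [Finite F] in
theorem col_single (hH : wr (Q8 F) T ≤ H)
    (hf : ∀ h ∈ H, ∀ j l, normSq (h.1 j l) = 0 ∨ normSq (h.1 j l) = 1)
    {h : UM ι F} (hh : h ∈ H) (l : ι) : ∃ a, ∀ a', a' ≠ a → h.1 a' l = 0 := by
  obtain ⟨a, -, ha⟩ := Finset.exists_ne_zero_of_sum_ne_zero
    (by rw [um_col_norm h l]; exact one_ne_zero : ∑ a, normSq (h.1 a l) ≠ 0)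
  have h1 := (hf h hh a l).resolve_left ha
  refine ⟨a, fun j hj => ?_⟩
  have h2 : h.1 j l * star (h.1 a l) = 0 := by
    refine pure_zero (by rw [map_mul, normSq_star, h1, mul_one]; exact hf h hh j l)
      fun c hc c' hc' => ?_
    have h3 := hf _ (H.mul_mem (H.mul_mem (H.inv_mem hh) (H.mul_mem (hH (sg_mem_wr a hc))
      (hH (sg_mem_wr j hc')))) hh) l l
    have h4 : (h⁻¹ * (sg a c * sg j c') * h).1 l l =
        1 + (star (h.1 a l) * (c.1 - 1) * h.1 a l + star (h.1 j l) * (c'.1 - 1) * h.1 j l) := by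
      have h5 := um_col h l l
      rw [if_pos rfl] at h5
      rw [sg_eq, sg_eq, ← map_mul, Submonoid.coe_mul, Submonoid.coe_mul, um_inv, dg_val, mul_apply,
        ← sub_eq_iff_eq_add']
      conv_lhs => rw [← h5]
      rw [← Finset.sum_sub_distrib,
        Finset.sum_eq_add a j hj.symm (fun i _ hi => by simp [hi.1, hi.2]) (by simp) (by simp)]
      simp [hj, hj.symm, mul_sub, sub_mul]
    have h5 : h.1 a l * star (h.1 a l) = 1 := by rw [self_mul_star, h1, Quaternion.coe_one]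
    have h6 : c.1 + star (h.1 j l * star (h.1 a l)) * (c'.1 - 1) * (h.1 j l * star (h.1 a l)) =
        h.1 a l * (h⁻¹ * (sg a c * sg j c') * h).1 l l * star (h.1 a l) := by
      rw [h4, star_mul, star_star, mul_add, add_mul, mul_add, add_mul, mul_one, h5, ← mul_assoc,
        ← mul_assoc, ← mul_assoc (h.1 a l), ← mul_assoc (h.1 a l), h5, one_mul,
        mul_assoc _ (h.1 a l), h5, mul_one]
      simp only [mul_assoc, add_sub_cancel, ← add_assoc]
    rwa [h6, map_mul, map_mul, normSq_star, h1, one_mul, mul_one]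
  have h3 := congrArg (· * h.1 a l) h2
  simpa [mul_assoc, Quaternion.star_mul_self, h1] using h3

theorem conj_mem_of_mon (hns : ¬ IsSquare (2 : F)) (hH : wr (Q8 F) T ≤ H)
    (hA : ∀ j c, sg j c ∈ H → c ∈ Q8 F) {a : UQ F} (ha : a ∈ normalizer (Q8 F : Set (UQ F)))
    {h : UM ι F} (hh : h ∈ H) (hf : ∀ l, ∃ a, ∀ a', a' ≠ a → h.1 a' l = 0) :
    (dg fun _ => a) * h * (dg fun _ => a)⁻¹ ∈ H := by
  obtain ⟨σ, b, rfl⟩ := exists_mon hf
  have hb : ∀ l, b l ∈ normalizer (Q8 F : Set (UQ F)) := fun l => by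
    obtain ⟨p, hp, hp'⟩ := conj_sg_of_col (g := pm σ * dg b) (j := l) (a := σ l)
      fun a' ha' => by rw [pm_dg_apply, if_neg ha']
    rw [pm_dg_apply, if_pos rfl] at hp
    refine mem_normalizer_fintype fun c hc => hA (σ l) _ ?_
    rw [Subtype.ext hp, ← hp', conj_mem_iff hh]
    exact hH (sg_mem_wr l hc)
  have := H.mul_mem hh (hH (dg_mem_wr (b := fun l => (b l)⁻¹ * a * (b l)⁻¹⁻¹ * a⁻¹)
    fun l => comm_Q8 hns (inv_mem (hb l)) ha))
  convert this using 1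
  rw [← mul_assoc, dg_mul_pm, ← map_inv, mul_assoc, mul_assoc, mul_assoc, ← map_mul, ← map_mul,
    ← map_mul]
  congr 2
  funext l
  simp [mul_assoc]

theorem exists_sylow_wr [Nonempty ι] {Q : Subgroup (UQ F)} (hQ : IsPGroup 2 Q) (hi : qi ∈ Q)
    (h3 : ∀ a ∈ normalizer (Q : Set (UQ F)), a ^ 3 ∈ Q)
    (hc : ∀ a ∈ normalizer (Q : Set (UQ F)), ∀ b ∈ normalizer (Q : Set (UQ F)),
      a * b * a⁻¹ * b⁻¹ ∈ Q) (hT : IsPGroup 2 T)
    (hT1 : ∀ x y, ∃ σ ∈ T, σ x = y) (hT2 : ∀ g : Perm ι, (∀ r ∈ T, g * r * g⁻¹ ∈ T) → g ∈ T) :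
    ∃ S : Sylow 2 (UM ι F), (S : Subgroup (UM ι F)) = wr Q T ∧
      ∀ a ∈ normalizer ((S : Subgroup (UM ι F)) : Set (UM ι F)),
      ∀ b ∈ normalizer ((S : Subgroup (UM ι F)) : Set (UM ι F)),
        a * b * a⁻¹ * b⁻¹ ∈ (S : Subgroup (UM ι F)) := by
  obtain ⟨S, hS⟩ := exists_sylow_of_cube (wr Q T) (isPGroup_wr hQ hT) fun g hg => by
    obtain ⟨s, hs, a, ha, rfl⟩ := normalizer_wr hi hT1 hT2 hg
    refine cube_mem (dg_const_mem_normalizer ha) ?_ hs
    rw [← map_pow]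
    exact dg_mem_wr fun _ => h3 a ha
  refine ⟨S, hS, ?_⟩
  rw [hS]
  intro g hg g' hg'
  obtain ⟨s, hs, a, ha, rfl⟩ := normalizer_wr hi hT1 hT2 hg
  obtain ⟨s', hs', a', ha', rfl⟩ := normalizer_wr hi hT1 hT2 hg'
  have h1 : (dg fun _ => a) * (dg fun _ => a') * (dg fun _ => a)⁻¹ * (dg fun _ => a')⁻¹ ∈
      wr Q T := by
    rw [← map_inv, ← map_inv, ← map_mul, ← map_mul, ← map_mul]
    exact dg_mem_wr fun _ => hc a ha a' ha'
  have := mul_mem (mul_mem (mul_mem (mul_mem hs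
    ((mem_normalizer_iff.1 (dg_const_mem_normalizer ha) _).1 hs')) h1)
    ((mem_normalizer_iff.1 (dg_const_mem_normalizer ha') _).1 (inv_mem hs))) (inv_mem hs')
  convert this using 1
  group

theorem good_UM [Nonempty ι] (hT : IsPGroup 2 T)
    (hT1 : ∀ x y, ∃ σ ∈ T, σ x = y) (hT2 : ∀ g : Perm ι, (∀ r ∈ T, g * r * g⁻¹ ∈ T) → g ∈ T) :
    Good (UM ι F) := by
  by_cases hns : IsSquare (2 : F)
  · obtain ⟨P, hi, hP⟩ := exists_sylow_self hns
    obtain ⟨S, hS, hS'⟩ := exists_sylow_wr P.isPGroup' hi (fun a ha => pow_mem (hP a ha) 3)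
      (fun a ha b hb => mul_mem (mul_mem (mul_mem (hP a ha) (hP b hb)) (inv_mem (hP a ha)))
        (inv_mem (hP b hb))) hT hT1 hT2
    refine ⟨S, hS', fun H hH => pronormal_of_normalizer_le H S hH fun g hg =>
      le_normalizer (hH ?_)⟩
    rw [hS] at hg ⊢
    obtain ⟨s, hs, a, ha, rfl⟩ := normalizer_wr hi hT1 hT2 hg
    exact mul_mem hs (dg_mem_wr fun _ => hP a ha)
  obtain ⟨S, hS, hS'⟩ := exists_sylow_wr isPGroup_Q8 qi_mem (fun g hg => by
    obtain ⟨r, c, hc, rfl⟩ := normalizer_Q8 hns hg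
    exact cube_mem (pow_mem qo_mem_normalizer r)
      (by rw [← pow_mul, mul_comm, pow_mul, qo_cube, one_pow]; exact one_mem _) hc)
    (fun a ha b hb => comm_Q8 hns ha hb) hT hT1 hT2
  refine ⟨S, hS', fun H hH => pronormal_of_sylow' H S hH fun g hg => ?_⟩
  set K := H ⊔ H.map (MulAut.conj g).toMonoidHom with hK
  by_cases hgK : g ∈ K
  · exact ⟨g, hgK, rfl⟩
  rw [hS] at hg hH
  have hHK : H ≤ K := le_sup_left
  obtain ⟨s, hs, a, ha, rfl⟩ := normalizer_wr qi_mem hT1 hT2 hg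
  have ha' : a ∉ Q8 F := fun h => hgK (hHK (hH (mul_mem hs (dg_mem_wr fun _ => h))))
  have hx : (dg fun _ => qo) ∉ K := fun h => by
    obtain ⟨r, c, hc, rfl⟩ := normalizer_Q8 hns ha
    refine hgK (mul_mem (hHK (hH hs)) ?_)
    rw [show (fun _ : ι => c * qo ^ r) = (fun _ => c) * (fun _ => qo) ^ r from rfl, map_mul,
      map_pow]
    exact mul_mem (hHK (hH (dg_mem_wr fun _ => hc))) (pow_mem h r)
  have hA : ∀ j c, sg j c ∈ H → c ∈ Q8 F := fun j c hc => by
    rw [← eq_Q8 hns (H := H.comap (sg j)) (K := K.comap (sg j))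
      (fun c hc => hH (sg_mem_wr j hc)) (comap_mono hHK) ha ha' (fun x hx => ?_)
      fun h => hx (avg hT hT1 (hH.trans hHK) (K.mul_mem h h))]
    · exact hc
    · have h1 : s * (dg fun _ => a) * sg j x * (s * dg fun _ => a)⁻¹ ∈ K :=
        (le_sup_right : H.map _ ≤ K) ⟨_, hx, rfl⟩
      have h2 := (conj_mem_iff (K.inv_mem (hHK (hH hs)))).2 h1
      rw [mem_comap]
      convert h2 using 1
      have : (sg j (a * x * a⁻¹) : UM ι F) = (dg fun _ => a) * sg j x * (dg fun _ => a)⁻¹ := by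
        rw [sg_eq, sg_eq, ← map_inv, ← map_mul, ← map_mul]
        congr 1
        funext i
        by_cases h : i = j <;> simp [h]
      rw [this]
      group
  have h1 := fun h hh => half hns hT hT1 S hS hH hA (fun h => hx (hHK h)) (h := h) hh
  have h2 := fun h hh => zero_one hns hH hA h1 (h := h) hh
  have h3 : s * (dg fun _ => a) ∈ normalizer (H : Set (UM ι F)) :=
    mul_mem (le_normalizer (hH hs)) (mem_normalizer_fintype fun h hh =>
      conj_mem_of_mon hns hH hA ha hh (col_single hH h2 hh))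
  refine ⟨1, one_mem _, ?_⟩
  ext z
  have := mem_normalizer_iff.1 (inv_mem h3) z
  simp only [mem_map_conj, inv_one, one_mul, mul_one]
  rw [inv_inv] at this
  exact this.symm

end Cfsg.Agent.Pron
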