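import Cfsg.Agent.Pron.Quat

/-!
Unitary matrices over the quaternions: monomial subgroups and their normalisers.
-/

set_option autoImplicit false

namespace Cfsg.Agent.Pron

open Quaternion Subgroup Matrix Equiv

variable {F : Type*} [Field F] {ι κ : Type*} [Fintype ι] [DecidableEq ι] [Fintype κ] [DecidableEq κ]

/-- Unitary matrices over the quaternions. -/
abbrev UM (ι F : Type*) [Field F] [Fintype ι] [DecidableEq ι] := unitary (Matrix ι ι ℍ[F])

theorem um_inv (g : UM ι F) : (g⁻¹).1 = g.1ᴴ := rfl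

theorem um_mul_conj (g : UM ι F) : g.1 * g.1ᴴ = 1 := g.2.2

theorem um_conj_mul (g : UM ι F) : g.1ᴴ * g.1 = 1 := g.2.1

theorem um_col (g : UM ι F) (l l' : ι) :
    ∑ a, star (g.1 a l) * g.1 a l' = if l = l' then 1 else 0 := by
  have := congrFun (congrFun (um_conj_mul g) l) l'
  rwa [mul_apply, one_apply] at this

theorem um_col_norm (g : UM ι F) (l : ι) : ∑ a, normSq (g.1 a l) = 1 := by
  have := um_col g l l
  simp only [Quaternion.star_mul_self, if_true] at this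
  exact Quaternion.coe_injective ((map_sum (algebraMap F ℍ[F]) _ _).trans this)

/-- Diagonal matrices. -/
def dg : (ι → UQ F) →* UM ι F where
  toFun b := ⟨diagonal fun j => (b j).1, by
    constructor <;> rw [star_eq_conjTranspose, diagonal_conjTranspose, diagonal_mul_diagonal,
      ← diagonal_one] <;> congr 1 <;> funext j
    exacts [(b j).2.1, (b j).2.2]⟩
  map_one' := Subtype.ext diagonal_one
  map_mul' a b := Subtype.ext (diagonal_mul_diagonal _ _).symm

theorem dg_val (b : ι → UQ F) : (dg b : UM ι F).1 = diagonal fun j => (b j).1 := rfl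

/-- Permutation matrices. -/
def pmM (σ : Perm ι) : Matrix ι ι ℍ[F] := of fun a l => if a = σ l then 1 else 0

theorem pmM_mul (σ τ : Perm ι) : (pmM σ * pmM τ : Matrix ι ι ℍ[F]) = pmM (σ * τ) := by
  ext1 a l
  simp [pmM, mul_apply]
  rfl

omit [Fintype ι] in
theorem pmM_one : (pmM 1 : Matrix ι ι ℍ[F]) = 1 := by
  ext1 a l
  simp [pmM, one_apply]
  rfl

omit [Fintype ι] in
theorem pmM_conj (σ : Perm ι) : (pmM σ : Matrix ι ι ℍ[F])ᴴ = pmM σ⁻¹ := by
  ext1 a l
  simp only [pmM, conjTranspose_apply, of_apply, Perm.eq_inv_iff_eq, eq_comm (a := l)]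
  split_ifs <;> simp

/-- Permutation matrices. -/
def pm : Perm ι →* UM ι F where
  toFun σ := ⟨pmM σ, by
    constructor <;> rw [star_eq_conjTranspose, pmM_conj, pmM_mul] <;> simp [pmM_one]⟩
  map_one' := Subtype.ext pmM_one
  map_mul' σ τ := Subtype.ext (pmM_mul σ τ).symm

theorem pm_val (σ : Perm ι) : (pm σ : UM ι F).1 = pmM σ := rfl

theorem pm_dg_apply (σ : Perm ι) (b : ι → UQ F) (a l : ι) :
    (pm σ * dg b : UM ι F).1 a l = if a = σ l then (b l).1 else 0 := by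
  simp [pm_val, dg_val, pmM]

theorem dg_mul_pm (σ : Perm ι) (b : ι → UQ F) :
    (dg b * pm σ : UM ι F) = pm σ * dg (b ∘ σ) := by
  apply Subtype.ext
  ext1 a l
  rw [pm_dg_apply]
  simp only [Submonoid.coe_mul, dg_val, pm_val, pmM, diagonal_mul, of_apply, Function.comp]
  split_ifs with h <;> simp [h]

theorem uq_ne_zero (a : UQ F) : a.1 ≠ 0 := fun h => by simpa [h] using uq_norm a

theorem pm_dg_inj {σ τ : Perm ι} {b b' : ι → UQ F} (h : (pm σ * dg b : UM ι F) = pm τ * dg b') :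
    σ = τ ∧ b = b' := by
  have key : ∀ l, σ l = τ l ∧ b l = b' l := fun l => by
    have := congrArg (fun g : UM ι F => g.1 (σ l) l) h
    simp only [pm_dg_apply, if_true] at this
    split_ifs at this with h'
    · exact ⟨h', Subtype.ext this⟩
    · exact absurd this (uq_ne_zero _)
  exact ⟨Equiv.ext fun l => (key l).1, funext fun l => (key l).2⟩

/-- The action on one coordinate. -/
def sg (j : ι) : UQ F →* UM ι F := dg.comp (MonoidHom.mulSingle (fun _ => UQ F) j)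

theorem sg_eq (j : ι) (c : UQ F) : (sg j c : UM ι F) = dg (Pi.mulSingle j c) := rfl

/-- The map acting as `c` on the line spanned by `v`. -/
def el (v : ι → ℍ[F]) (c : ℍ[F]) : Matrix ι ι ℍ[F] :=
  1 + vecMulVec (fun a => v a * (c - 1)) (star v)

omit [Fintype ι] in
theorem el_apply (v : ι → ℍ[F]) (c : ℍ[F]) (a b : ι) :
    el v c a b = (if a = b then 1 else 0) + v a * (c - 1) * star (v b) := by
  simp [el, vecMulVec_apply, one_apply]

omit [Fintype κ] in
theorem mul_el_mul (A : Matrix κ ι ℍ[F]) (v : ι → ℍ[F]) (c : ℍ[F]) :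
    1 + A * (el v c - 1) * Aᴴ = el (A *ᵥ v) c := by
  rw [el, el, add_sub_cancel_left, mul_vecMulVec, vecMulVec_mul, star_mulVec]
  congr 2
  funext a
  simp [mulVec, dotProduct, Finset.sum_mul, mul_assoc]

theorem sg_val (j : ι) (c : UQ F) : (sg j c : UM ι F).1 = el (Pi.single j 1) c.1 := by
  ext1 a b
  rw [el_apply, sg_eq, dg_val, diagonal_apply]
  by_cases h : a = j <;> by_cases h' : b = j <;> simp [h, h', eq_comm]
  simp [Ne.symm h']

theorem conj_el {g x : UM ι F} {v : ι → ℍ[F]} {c : ℍ[F]} (h : x.1 = el v c) :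
    (g * x * g⁻¹).1 = el (g.1 *ᵥ v) c := by
  rw [← mul_el_mul, ← h, mul_sub, sub_mul, mul_one, um_mul_conj, add_sub_cancel]
  rfl

theorem conj_sg (g : UM ι F) (j : ι) (c : UQ F) :
    (g * sg j c * g⁻¹).1 = el (fun a => g.1 a j) c.1 := by
  rw [conj_el (sg_val j c), mulVec_single_one]
  rfl

omit [Fintype ι] in
theorem el_mul_right (v : ι → ℍ[F]) (p c : UQ F) :
    el (fun a => v a * p.1) c.1 = el v (p * c * p⁻¹).1 := by
  ext1 a b
  have : p.1 * (c.1 - 1) * star p.1 = (p * c * p⁻¹).1 - 1 := by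
    rw [mul_sub, sub_mul, mul_one, p.2.2]
    rfl
  rw [el_apply, el_apply, ← this, star_mul]
  simp only [mul_assoc]

theorem conj_sg_of_col {g : UM ι F} {j a : ι} (h : ∀ a', a' ≠ a → g.1 a' j = 0) :
    ∃ p : UQ F, g.1 a j = p.1 ∧ ∀ c, g * sg j c * g⁻¹ = sg a (p * c * p⁻¹) := by
  have h1 := um_col_norm g j
  rw [Finset.sum_eq_single a (fun b _ hb => by simp [h b hb]) (by simp)] at h1
  refine ⟨⟨_, mem_uq.2 h1⟩, rfl, fun c => Subtype.ext ?_⟩
  rw [conj_sg, sg_val, ← el_mul_right]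
  congr 1
  funext a'
  by_cases h' : a' = a
  · simp [h']
  · simp [h', h a' h']

theorem exists_mon {g : UM ι F} (h : ∀ l, ∃ a, ∀ a', a' ≠ a → g.1 a' l = 0) :
    ∃ σ b, g = pm σ * dg b := by
  choose f hf using h
  choose b hb _ using fun l => conj_sg_of_col (hf l)
  have hinj : Function.Injective f := fun l l' e => by
    by_contra hne
    have h1 := um_col g l l'
    rw [if_neg hne, Finset.sum_eq_single (f l) (fun a _ ha => by simp [hf l a ha]) (by simp),
      hb, e, hb] at h1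
    exact uq_ne_zero ((b l)⁻¹ * b l') h1
  refine ⟨Equiv.ofBijective f (Finite.injective_iff_bijective.1 hinj), b, Subtype.ext ?_⟩
  ext1 a l
  rw [pm_dg_apply]
  change _ = if a = f l then _ else _
  split_ifs with h'
  · rw [h', hb]
  · exact hf l a h'

theorem eq_zero_of_mul {a b : ℍ[F]} (ha : normSq a ≠ 0) (h : a * b = 0) : b = 0 := by
  have := congrArg (star a * ·) h
  simp only [← mul_assoc, Quaternion.star_mul_self, mul_zero, coe_mul_eq_smul] at this
  exact (smul_eq_zero.1 this).resolve_left ha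

theorem col_of_mon [NeZero (2 : F)] {g : UM ι F} {j : ι} {c : UQ F} (hc : c.1.re = 0)
    {σ : Perm ι} {b : ι → UQ F} (h : g * sg j c * g⁻¹ = pm σ * dg b) :
    ∃ a, ∀ a', a' ≠ a → g.1 a' j = 0 := by
  have key : ∀ a l, (if a = l then 1 else 0) + g.1 a j * (c.1 - 1) * star (g.1 l j) =
      if a = σ l then (b l).1 else 0 := fun a l => by
    rw [← pm_dg_apply, ← h, conj_sg, el_apply]
  have hn := uq_norm' c
  have hσ : ∀ l, σ l = l := fun l => by
    by_contra hne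
    have h1 := key l l
    rw [if_pos rfl, if_neg (Ne.symm hne)] at h1
    have h2 : normSq (g.1 l j) = 1 := by
      have := congrArg QuaternionAlgebra.re h1
      simp [hc] at this
      rw [normSq_eq]
      linear_combination -this
    have h3 := congrArg normSq (eq_neg_of_add_eq_zero_right h1)
    rw [map_mul, map_mul, normSq_star, h2, normSq_eq] at h3
    simp [hc] at h3 hn
    exact one_ne_zero (α := F) (by linear_combination h3 - hn)
  obtain ⟨a, -, ha⟩ := Finset.exists_ne_zero_of_sum_ne_zero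
    (by rw [um_col_norm g j]; exact one_ne_zero : ∑ a, normSq (g.1 a j) ≠ 0)
  refine ⟨a, fun a' ha' => ?_⟩
  have h1 := key a a'
  rw [hσ, if_neg ha'.symm, if_neg ha'.symm, zero_add] at h1
  refine star_eq_zero.1 (eq_zero_of_mul ?_ h1)
  rw [map_mul]
  refine mul_ne_zero ha fun e => NeZero.ne (2 : F) ?_
  rw [normSq_eq] at e
  simp [hc] at e hn
  linear_combination e - hn

/-- The monomial group with entries in `Q` and permutations in `T`. -/
def wr (Q : Subgroup (UQ F)) (T : Subgroup (Perm ι)) : Subgroup (UM ι F) where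
  carrier := {g | ∃ σ ∈ T, ∃ b : ι → UQ F, (∀ j, b j ∈ Q) ∧ g = pm σ * dg b}
  one_mem' := ⟨1, one_mem _, 1, fun _ => one_mem _, by simp⟩
  mul_mem' := by
    rintro _ _ ⟨σ, hσ, b, hb, rfl⟩ ⟨τ, hτ, b', hb', rfl⟩
    refine ⟨σ * τ, mul_mem hσ hτ, b ∘ τ * b', fun j => mul_mem (hb _) (hb' _), ?_⟩
    rw [map_mul, map_mul, mul_assoc, ← mul_assoc (dg b), dg_mul_pm, mul_assoc, mul_assoc]
  inv_mem' := by
    rintro _ ⟨σ, hσ, b, hb, rfl⟩
    refine ⟨σ⁻¹, inv_mem hσ, b⁻¹ ∘ ⇑σ⁻¹, fun j => inv_mem (hb _), ?_⟩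
    rw [_root_.mul_inv_rev, ← map_inv, ← map_inv, dg_mul_pm]

variable {Q : Subgroup (UQ F)} {T : Subgroup (Perm ι)}

theorem mem_wr {g : UM ι F} :
    g ∈ wr Q T ↔ ∃ σ ∈ T, ∃ b : ι → UQ F, (∀ j, b j ∈ Q) ∧ g = pm σ * dg b := Iff.rfl

theorem dg_mem_wr {b : ι → UQ F} (hb : ∀ j, b j ∈ Q) : dg b ∈ wr Q T :=
  ⟨1, one_mem _, b, hb, by simp⟩

theorem pm_mem_wr {σ : Perm ι} (h : σ ∈ T) : pm σ ∈ wr Q T :=
  ⟨σ, h, 1, fun _ => one_mem _, by simp⟩

theorem sg_mem_wr (j : ι) {c : UQ F} (hc : c ∈ Q) : sg j c ∈ wr Q T :=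
  dg_mem_wr fun l => by
    by_cases h : l = j
    · simpa [h] using hc
    · simp [h, Q.one_mem]

theorem pm_dg_mem_wr {σ : Perm ι} {b : ι → UQ F} (h : pm σ * dg b ∈ wr Q T) :
    σ ∈ T ∧ ∀ j, b j ∈ Q := by
  obtain ⟨τ, hτ, b', hb', e⟩ := h
  obtain ⟨rfl, rfl⟩ := pm_dg_inj e
  exact ⟨hτ, hb'⟩

theorem mem_of_sg_mem_wr {j : ι} {c : UQ F} (h : sg j c ∈ wr Q T) : c ∈ Q := by
  have := (pm_dg_mem_wr (σ := 1) (b := Pi.mulSingle j c) (by rwa [map_one, one_mul])).2 j
  simpa using this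

theorem isPGroup_wr (hQ : IsPGroup 2 Q) (hT : IsPGroup 2 T) : IsPGroup 2 (wr Q T) := by
  have hB : IsPGroup 2 (Subgroup.pi Set.univ fun _ : ι => Q) := by
    rintro ⟨x, hx⟩
    choose k hk using fun i => hQ ⟨x i, hx i trivial⟩
    refine ⟨∑ i, k i, Subtype.ext (funext fun i => ?_)⟩
    obtain ⟨c, hc⟩ : 2 ^ k i ∣ 2 ^ ∑ i, k i :=
      pow_dvd_pow 2 (Finset.single_le_sum (fun _ _ => Nat.zero_le _) (Finset.mem_univ i))
    have := congrArg Subtype.val (hk i)
    change x i ^ 2 ^ k i = 1 at this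
    change x i ^ 2 ^ ∑ i, k i = 1
    rw [hc, pow_mul, this, one_pow]
  refine ((hT.map (pm (F := F))).to_sup_of_normal_right' (hB.map dg) ?_).to_le ?_
  · rintro _ ⟨σ, hσ, rfl⟩
    have key : ∀ σ : Perm ι, ∀ x ∈ (Subgroup.pi Set.univ fun _ : ι => Q).map dg,
        pm σ * x * (pm σ)⁻¹ ∈ (Subgroup.pi Set.univ fun _ : ι => Q).map dg := by
      rintro σ _ ⟨b, hb, rfl⟩
      refine ⟨b ∘ ⇑σ⁻¹, fun j _ => hb _ trivial, ?_⟩
      rw [mul_assoc, ← map_inv, dg_mul_pm, map_inv, mul_inv_cancel_left]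
    refine mem_normalizer_iff.2 fun x => ⟨key σ x, fun h => ?_⟩
    simpa [mul_assoc] using key σ⁻¹ _ h
  · rintro _ ⟨σ, hσ, b, hb, rfl⟩
    exact mul_mem_sup (mem_map_of_mem _ hσ) (mem_map_of_mem _ fun j _ => hb j)

theorem normalizer_wr [Finite F] [NeZero (2 : F)] [Nonempty ι] (hi : qi ∈ Q)
    (hT1 : ∀ x y, ∃ σ ∈ T, σ x = y) (hT2 : ∀ g : Perm ι, (∀ r ∈ T, g * r * g⁻¹ ∈ T) → g ∈ T)
    {g : UM ι F} (hg : g ∈ normalizer (wr Q T : Set (UM ι F))) :
    ∃ s ∈ wr Q T, ∃ a ∈ normalizer (Q : Set (UQ F)), g = s * dg fun _ => a := by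
  have h1 := fun x => (mem_normalizer_iff.1 hg x).1
  obtain ⟨σ, b, rfl⟩ : ∃ σ b, g = pm σ * dg b := exists_mon fun l => by
    obtain ⟨σ, -, b, -, e⟩ := h1 _ (sg_mem_wr l hi)
    exact col_of_mon (by simp [qi_val]) e
  have h2 : ∀ τ ∈ T, σ * τ * σ⁻¹ ∈ T ∧ ∀ j, ((b ∘ τ * b⁻¹) ∘ ⇑σ⁻¹) j ∈ Q := fun τ hτ => by
    refine pm_dg_mem_wr ?_
    convert h1 _ (pm_mem_wr hτ) using 1
    rw [map_mul, map_mul, mul_assoc, ← dg_mul_pm, map_mul, ← mul_assoc, ← mul_assoc,
      mul_assoc (pm σ), ← dg_mul_pm, _root_.mul_inv_rev, map_inv, map_inv]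
    simp only [mul_assoc]
  obtain ⟨l⟩ := ‹Nonempty ι›
  refine ⟨pm σ * dg fun j => b j * (b l)⁻¹, ⟨σ, hT2 σ fun r hr => (h2 r hr).1, _, fun j => ?_, rfl⟩,
    b l, mem_normalizer_fintype fun c hc => ?_, ?_⟩
  · obtain ⟨τ, hτ, rfl⟩ := hT1 l j
    simpa using (h2 τ hτ).2 (σ l)
  · obtain ⟨p, hp, hp'⟩ := conj_sg_of_col (g := pm σ * dg b) (j := l) (a := σ l)
      fun a' ha' => by rw [pm_dg_apply, if_neg ha']
    rw [pm_dg_apply, if_pos rfl] at hp
    have := h1 _ (sg_mem_wr l hc)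
    rw [hp', ← Subtype.ext hp] at this
    exact mem_of_sg_mem_wr this
  · rw [mul_assoc, ← map_mul]
    congr 2
    funext j
    simp

theorem dg_const_mem_normalizer [Finite F] [NeZero (2 : F)] {a : UQ F}
    (ha : a ∈ normalizer (Q : Set (UQ F))) :
    (dg fun _ => a) ∈ normalizer (wr Q T : Set (UM ι F)) := by
  have key : ∀ a ∈ normalizer (Q : Set (UQ F)), ∀ x ∈ wr Q T,
      (dg fun _ => a) * x * (dg fun _ => a)⁻¹ ∈ wr Q T := by
    rintro a ha _ ⟨σ, hσ, b, hb, rfl⟩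
    refine ⟨σ, hσ, fun j => a * b j * a⁻¹, fun j => (mem_normalizer_iff.1 ha _).1 (hb j), ?_⟩
    rw [← mul_assoc, dg_mul_pm, ← map_inv, mul_assoc, mul_assoc, ← map_mul, ← map_mul]
    congr 2
    funext j
    simp [mul_assoc]
  refine mem_normalizer_iff.2 fun x => ⟨key a ha x, fun h => ?_⟩
  have := key a⁻¹ (inv_mem ha) _ h
  rw [show (fun _ : ι => a⁻¹) = (fun _ => a)⁻¹ from rfl, map_inv] at this
  simpa [mul_assoc] using this

/-- The embedding attached to an orthonormal frame. -/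
def fr (P : Matrix ι κ ℍ[F]) (hP : Pᴴ * P = 1) : UM κ F →* UM ι F where
  toFun g := ⟨1 + P * (g.1 - 1) * Pᴴ, by
    have h : ∀ A B : Matrix κ κ ℍ[F], (1 + P * (A - 1) * Pᴴ) * (1 + P * (B - 1) * Pᴴ) =
        1 + P * (A * B - 1) * Pᴴ := fun A B => by
      have : P * (A - 1) * Pᴴ * (P * (B - 1) * Pᴴ) = P * ((A - 1) * (B - 1)) * Pᴴ := by
        simp only [Matrix.mul_assoc]
        rw [← Matrix.mul_assoc Pᴴ P, hP, Matrix.one_mul]
      rw [add_mul, mul_add, mul_add, this]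
      simp only [mul_one, one_mul, add_assoc, ← Matrix.add_mul, ← Matrix.mul_add]
      congr 3
      noncomm_ring
    have h' : star (1 + P * (g.1 - 1) * Pᴴ) = 1 + P * (g.1ᴴ - 1) * Pᴴ := by
      simp [star_eq_conjTranspose, Matrix.mul_assoc]
    constructor <;> rw [h', h]
    · simp [um_conj_mul]
    · simp [um_mul_conj]⟩
  map_one' := Subtype.ext (by simp)
  map_mul' A B := Subtype.ext (by
    have : P * (A.1 - 1) * Pᴴ * (P * (B.1 - 1) * Pᴴ) = P * ((A.1 - 1) * (B.1 - 1)) * Pᴴ := by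
      simp only [Matrix.mul_assoc]
      rw [← Matrix.mul_assoc Pᴴ P, hP, Matrix.one_mul]
    change 1 + P * (A.1 * B.1 - 1) * Pᴴ = (1 + P * (A.1 - 1) * Pᴴ) * (1 + P * (B.1 - 1) * Pᴴ)
    rw [add_mul, mul_add, mul_add, this]
    simp only [mul_one, one_mul, add_assoc, ← Matrix.add_mul, ← Matrix.mul_add, Submonoid.coe_mul]
    congr 3
    noncomm_ring)

theorem fr_val (P : Matrix ι κ ℍ[F]) (hP : Pᴴ * P = 1) (g : UM κ F) :
    (fr P hP g).1 = 1 + P * (g.1 - 1) * Pᴴ := rfl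

theorem exists_frame (h : UM ι F) (j l : ι) {χ : ℍ[F]} (h1 : normSq χ = 1 - normSq (h.1 j l))
    (h0 : normSq χ ≠ 0) : ∃ ρ : UM (Fin 2) F →* UM ι F, (∀ c, ρ (sg 0 c) = sg j c) ∧
      (∀ (c : UQ F) (x : UM (Fin 2) F), x.1 = el ![h.1 j l, χ] c.1 → ρ x = h * sg l c * h⁻¹) ∧
      ∀ x, (ρ x).1 j j = x.1 0 0 := by
  let P : Matrix ι (Fin 2) ℍ[F] := of fun a => ![if a = j then 1 else 0,
    if a = j then 0 else h.1 a l * ((normSq χ)⁻¹ • star χ)]
  have hP : Pᴴ * P = 1 := by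
    have e : ∑ a, (if a = j then 0 else normSq (h.1 a l)) = normSq χ := by
      rw [h1, ← um_col_norm h l, eq_sub_iff_add_eq, ← Finset.sum_ite_eq' Finset.univ j
        (fun a => normSq (h.1 a l)) |>.trans (if_pos (Finset.mem_univ j)), ← Finset.sum_add_distrib]
      exact Finset.sum_congr rfl fun a _ => by split_ifs <;> simp
    ext1 r s
    rw [mul_apply]
    fin_cases r <;> fin_cases s
    · simp [P, apply_ite star]
    · refine Finset.sum_eq_zero fun a _ => ?_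
      by_cases ha : a = j <;> simp [P, ha]
    · simp only [P, conjTranspose_apply, of_apply]
      simp
    · simp only [P, conjTranspose_apply, of_apply]
      simp only [Fin.mk_one, cons_val_one, cons_val_zero, Quaternion.star_mul_self, one_apply_eq]
      rw [← Quaternion.coe_one]
      refine (map_sum (algebraMap F ℍ[F]) _ _).symm.trans (congrArg _ ?_)
      have : ∀ a, normSq (if a = j then 0 else h.1 a l * ((normSq χ)⁻¹ • star χ)) =
          (if a = j then 0 else normSq (h.1 a l)) * (normSq χ)⁻¹ := fun a => by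
        split_ifs
        · simp
        · rw [map_mul, normSq_smul, normSq_star]
          field_simp
      refine (Finset.sum_congr rfl fun a _ => this a).trans ?_
      rw [← Finset.sum_mul, e, mul_inv_cancel₀ h0]
      rfl
  refine ⟨fr P hP, fun c => Subtype.ext ?_, fun c x hx => Subtype.ext ?_, fun x => ?_⟩
  · rw [fr_val, sg_val, mul_el_mul, sg_val]
    congr 1
    funext a
    simp [P, mulVec, dotProduct, Pi.single_apply]
  · rw [fr_val, hx, mul_el_mul, conj_sg]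
    congr 1
    funext a
    by_cases ha : a = j
    · simp [P, mulVec, dotProduct, ha]
    · simp [P, mulVec, dotProduct, ha, mul_assoc, Quaternion.star_mul_self, mul_coe_eq_smul,
        smul_smul, h0]
  · simp [fr_val, P, mul_apply]

end Cfsg.Agent.Pron
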