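import Cfsg.Agent.Pron.Abs

/-!
The group of norm one quaternions over a finite field of odd order.
-/

set_option autoImplicit false

namespace Cfsg.Agent.Pron

open Quaternion Subgroup Cfsg.Agent.GLn Cfsg.Agent.SL2

variable {F : Type*} [Field F]

/-- Quaternions of norm one. -/
abbrev UQ (F : Type*) [Field F] := unitary ℍ[F]

theorem mem_uq {a : ℍ[F]} : a ∈ unitary ℍ[F] ↔ normSq a = 1 := by
  rw [Unitary.mem_iff, Quaternion.star_mul_self, self_mul_star, and_self, ← Quaternion.coe_one,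
    Quaternion.coe_inj]

theorem uq_norm (a : UQ F) : normSq a.1 = 1 := mem_uq.1 a.2

theorem uq_norm' (a : UQ F) : a.1.re ^ 2 + a.1.imI ^ 2 + a.1.imJ ^ 2 + a.1.imK ^ 2 = 1 := by
  rw [← normSq_def', uq_norm]

theorem uq_inv (a : UQ F) : (a⁻¹).1 = star a.1 := rfl

@[simp] theorem uq_neg (a : UQ F) : (-a).1 = -a.1 := rfl

/-- A quaternion from its coordinates. -/
def qm (a b c d : F) : ℍ[F] := ⟨a, b, c, d⟩

@[simp] theorem qm_re (a b c d : F) : (qm a b c d).re = a := rfl
@[simp] theorem qm_imI (a b c d : F) : (qm a b c d).imI = b := rfl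
@[simp] theorem qm_imJ (a b c d : F) : (qm a b c d).imJ = c := rfl
@[simp] theorem qm_imK (a b c d : F) : (qm a b c d).imK = d := rfl

theorem normSq_eq (a : ℍ[F]) : normSq a = a.re ^ 2 + a.imI ^ 2 + a.imJ ^ 2 + a.imK ^ 2 :=
  normSq_def' a

/-- The unit `i`. -/
def qi : UQ F := ⟨qm 0 1 0 0, mem_uq.2 (by simp [normSq_eq])⟩
/-- The unit `j`. -/
def qj : UQ F := ⟨qm 0 0 1 0, mem_uq.2 (by simp [normSq_eq])⟩
/-- The unit `k`. -/
def qk : UQ F := ⟨qm 0 0 0 1, mem_uq.2 (by simp [normSq_eq])⟩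
/-- The unit `(-1 + i + j + k) / 2`. -/
def qo [NeZero (2 : F)] : UQ F := ⟨qm (-2⁻¹) 2⁻¹ 2⁻¹ 2⁻¹, mem_uq.2 (by
  have := NeZero.ne (2 : F)
  simp only [normSq_eq, qm_re, qm_imI, qm_imJ, qm_imK]
  field_simp
  norm_num)⟩

theorem qi_val : (qi : UQ F).1 = qm 0 1 0 0 := rfl
theorem qj_val : (qj : UQ F).1 = qm 0 0 1 0 := rfl
theorem qk_val : (qk : UQ F).1 = qm 0 0 0 1 := rfl
theorem qo_val [NeZero (2 : F)] : (qo : UQ F).1 = qm (-2⁻¹) 2⁻¹ 2⁻¹ 2⁻¹ := rfl

theorem qi_mul_qj : (qi * qj : UQ F) = qk := Subtype.ext (by ext <;> simp [qi_val, qj_val, qk_val])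

/-- The quaternion group of order eight. -/
def Q8 (F : Type*) [Field F] : Subgroup (UQ F) := closure {qi, qj}

theorem qi_mem : qi ∈ Q8 F := subset_closure (by simp)
theorem qj_mem : qj ∈ Q8 F := subset_closure (by simp)
theorem qk_mem : qk ∈ Q8 F := qi_mul_qj (F := F) ▸ mul_mem qi_mem qj_mem

/-- The splitting of the quaternion algebra. -/
def spl [NeZero (2 : F)] {α β : F} (h : α ^ 2 + β ^ 2 = -1) : ℍ[F] ≃+* M2 F where
  toFun q := !![q.re + q.imJ * α + q.imK * β, q.imI + q.imJ * β - q.imK * α;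
    -q.imI + q.imJ * β - q.imK * α, q.re - q.imJ * α - q.imK * β]
  invFun m := qm ((m 0 0 + m 1 1) / 2) ((m 0 1 - m 1 0) / 2)
    (-(α * (m 0 0 - m 1 1) + β * (m 0 1 + m 1 0)) / 2)
    ((α * (m 0 1 + m 1 0) - β * (m 0 0 - m 1 1)) / 2)
  left_inv q := by
    have := NeZero.ne (2 : F)
    ext <;> simp <;> field_simp
    · linear_combination (-2 * q.imJ) * h
    · linear_combination (-2 * q.imK) * h
  right_inv m := by
    have := NeZero.ne (2 : F)
    apply m2_ext <;> simp <;> field_simp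
    · linear_combination (m 1 1 - m 0 0) * h
    · linear_combination (-m 0 1 - m 1 0) * h
    · linear_combination (-m 0 1 - m 1 0) * h
    · linear_combination (m 0 0 - m 1 1) * h
  map_mul' p q := by
    apply m2_ext <;> simp [mul_ap]
    · linear_combination (-p.imJ * q.imJ - p.imK * q.imK + p.imJ * q.imK * 0) * h
    · linear_combination (p.imJ * q.imK - p.imK * q.imJ) * h
    · linear_combination (p.imK * q.imJ - p.imJ * q.imK) * h
    · linear_combination (-p.imJ * q.imJ - p.imK * q.imK) * h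
  map_add' p q := by
    apply m2_ext <;> simp <;> ring

theorem spl_apply [NeZero (2 : F)] {α β : F} (h : α ^ 2 + β ^ 2 = -1) (q : ℍ[F]) :
    spl h q = !![q.re + q.imJ * α + q.imK * β, q.imI + q.imJ * β - q.imK * α;
    -q.imI + q.imJ * β - q.imK * α, q.re - q.imJ * α - q.imK * β] := rfl

theorem det_spl [NeZero (2 : F)] {α β : F} (h : α ^ 2 + β ^ 2 = -1) (q : ℍ[F]) :
    (spl h q).det = normSq q := by
  rw [spl_apply, Matrix.det_fin_two_of, normSq_eq]
  linear_combination (-q.imJ ^ 2 - q.imK ^ 2) * h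

/-- Norm one quaternions form `SL₂`. -/
def splU [NeZero (2 : F)] {α β : F} (h : α ^ 2 + β ^ 2 = -1) : UQ F ≃* SLT F where
  toFun a := mkSL (spl h a.1) (by rw [det_spl, uq_norm])
  invFun g := ⟨(spl h).symm g.1, mem_uq.2 (by rw [← det_spl h, RingEquiv.apply_symm_apply, g.2])⟩
  left_inv a := Subtype.ext ((spl h).symm_apply_apply _)
  right_inv g := Subtype.ext ((spl h).apply_symm_apply _)
  map_mul' a b := Subtype.ext (map_mul (spl h) _ _)

theorem splU_val [NeZero (2 : F)] {α β : F} (h : α ^ 2 + β ^ 2 = -1) (a : UQ F) :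
    (splU h a).1 = spl h a.1 := rfl

theorem splU_neg [NeZero (2 : F)] {α β : F} (h : α ^ 2 + β ^ 2 = -1) (a : UQ F) :
    splU h (-a) = -splU h a := Subtype.ext (map_neg (spl h) _)

theorem exists_sq_add_sq [Finite F] [NeZero (2 : F)] (c : F) : ∃ α β : F, α ^ 2 + β ^ 2 = c := by
  have := Fintype.ofFinite F
  have hodd : Fintype.card F % 2 = 1 := FiniteField.odd_card_of_char_ne_two fun h =>
    NeZero.ne (2 : F) (by
      have := ringChar.Nat.cast_ringChar (R := F)
      rwa [h] at this)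
  obtain ⟨a, b, hab⟩ := FiniteField.exists_root_sum_quadratic
    (f := Polynomial.X ^ 2) (g := Polynomial.X ^ 2 - Polynomial.C c) (Polynomial.degree_X_pow 2)
    (Polynomial.degree_X_pow_sub_C (by decide) _) hodd
  refine ⟨a, b, ?_⟩
  simp at hab
  linear_combination hab

theorem qpair [NeZero (2 : F)] {α β : F} (h : α ^ 2 + β ^ 2 = -1) :
    QPair (splU h qi) (splU h qj) := ⟨NeZero.ne _, by simp [splU_val, spl_apply, qi_val], by
  rw [← map_inv, ← map_inv, ← map_mul, ← map_mul]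
  congr 1
  exact Subtype.ext (by ext <;> simp [qi_val, qj_val, uq_inv])⟩

theorem splU_qo [NeZero (2 : F)] {α β : F} (h : α ^ 2 + β ^ 2 = -1) :
    splU h qo = (qpair h).om := by
  apply sl_ext
  have := NeZero.ne (2 : F)
  simp only [QPair.om, mkSL_val, QPair.omM, splU_val, ← map_mul]
  apply m2_ext <;> simp [spl_apply, qi_val, qj_val, qo_val] <;> field_simp <;> ring

theorem splU_mem [NeZero (2 : F)] {α β : F} (h : α ^ 2 + β ^ 2 = -1) {a : UQ F} :
    splU h a ∈ q8 (splU h qi) (splU h qj) ↔ a ∈ Q8 F := by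
  have : q8 (splU h qi) (splU h qj) = (Q8 F).map (splU h).toMonoidHom := by
    rw [Q8, MonoidHom.map_closure, Set.image_pair]
    rfl
  rw [this]
  exact ⟨fun ⟨y, hy, e⟩ => (splU h).injective e ▸ hy, fun h => ⟨a, h, rfl⟩⟩

variable [Finite F] [NeZero (2 : F)]

instance instFiniteUQ : Finite (UQ F) := by
  obtain ⟨α, β, h⟩ := exists_sq_add_sq (-1 : F)
  exact Finite.of_equiv _ (splU h).toEquiv.symm

theorem mem_Q8 {a : UQ F} : a ∈ Q8 F ↔
    a = 1 ∨ a = -1 ∨ a = qi ∨ a = -qi ∨ a = qj ∨ a = -qj ∨ a = qk ∨ a = -qk := by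
  obtain ⟨α, β, h⟩ := exists_sq_add_sq (-1 : F)
  rw [← splU_mem h, (qpair h).mem_iff, ← map_mul, qi_mul_qj, ← map_one (splU h)]
  simp only [← splU_neg, EmbeddingLike.apply_eq_iff_eq]

theorem Q8_pow_four {a : UQ F} (ha : a ∈ Q8 F) : a ^ 4 = 1 := by
  obtain ⟨α, β, h⟩ := exists_sq_add_sq (-1 : F)
  apply (splU h).injective
  rw [map_pow, map_one]
  exact (qpair h).pow_four ((splU_mem h).2 ha)

theorem isPGroup_Q8 : IsPGroup 2 (Q8 F) := fun a => ⟨2, Subtype.ext (Q8_pow_four a.2)⟩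

theorem neg_one_mem_Q8 : -1 ∈ Q8 F := by simp [mem_Q8]

theorem qo_cube : (qo : UQ F) ^ 3 = 1 := by
  obtain ⟨α, β, h⟩ := exists_sq_add_sq (-1 : F)
  apply (splU h).injective
  rw [map_pow, map_one, splU_qo, QPair.om_cube]

theorem splU_mem_normalizer {α β : F} (h : α ^ 2 + β ^ 2 = -1) {a : UQ F} :
    splU h a ∈ normalizer (q8 (splU h qi) (splU h qj) : Set (SLT F)) ↔
      a ∈ normalizer (Q8 F : Set (UQ F)) := by
  constructor
  · intro ha
    refine mem_normalizer_fintype fun x hx => ?_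
    have := (mem_normalizer_iff.1 ha _).1 ((splU_mem h).2 hx)
    rwa [← map_inv, ← map_mul, ← map_mul, splU_mem] at this
  · intro ha
    refine mem_normalizer_fintype fun x hx => ?_
    obtain ⟨x, rfl⟩ := (splU h).surjective x
    have := (splU_mem h).2 ((mem_normalizer_iff.1 ha _).1 ((splU_mem h).1 hx))
    rwa [map_mul, map_mul, map_inv] at this

theorem qo_mem_normalizer : qo ∈ normalizer (Q8 F : Set (UQ F)) := by
  obtain ⟨α, β, h⟩ := exists_sq_add_sq (-1 : F)
  rw [← splU_mem_normalizer h, splU_qo]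
  exact (qpair h).om_mem_normalizer

theorem normalizer_Q8 (hns : ¬ IsSquare (2 : F)) {g : UQ F}
    (hg : g ∈ normalizer (Q8 F : Set (UQ F))) : ∃ r : ℕ, ∃ c ∈ Q8 F, g = c * qo ^ r := by
  obtain ⟨α, β, h⟩ := exists_sq_add_sq (-1 : F)
  have h1 := (qpair h).normalizer_cases hns ((splU_mem_normalizer h).2 (inv_mem hg))
  rw [← splU_qo, ← map_pow, ← map_mul, ← map_mul, splU_mem, splU_mem, splU_mem] at h1
  rcases h1 with h1 | h1 | h1
  · exact ⟨0, g, by simpa using h1, by simp⟩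
  · exact ⟨1, _, inv_mem h1, by simp⟩
  · exact ⟨2, _, inv_mem h1, by simp⟩

theorem normalizer_Q8' (hns : ¬ IsSquare (2 : F)) {g : UQ F}
    (hg : g ∈ normalizer (Q8 F : Set (UQ F))) (hg' : g ∉ Q8 F) :
    ∃ c ∈ Q8 F, g = c * qo ∨ g = c * qo ^ 2 := by
  obtain ⟨r, c, hc, rfl⟩ := normalizer_Q8 hns hg
  have h1 : (qo : UQ F) ^ r = qo ^ (r % 3) := by
    conv_lhs => rw [← Nat.div_add_mod r 3, pow_add, pow_mul, qo_cube, one_pow, one_mul]
  have h2 : r % 3 < 3 := Nat.mod_lt _ (by norm_num)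
  rw [h1] at hg' ⊢
  interval_cases r % 3
  · exact absurd (by simpa using hc) hg'
  · exact ⟨c, hc, Or.inl (by simp)⟩
  · exact ⟨c, hc, Or.inr rfl⟩

theorem qo_mem_of_mem (hns : ¬ IsSquare (2 : F)) {g : UQ F}
    (hg : g ∈ normalizer (Q8 F : Set (UQ F))) (hg' : g ∉ Q8 F) {K : Subgroup (UQ F)}
    (hK : Q8 F ≤ K) (hgK : g ∈ K) : qo ∈ K := by
  obtain ⟨c, hc, rfl | rfl⟩ := normalizer_Q8' hns hg hg'
  · exact (K.mul_mem_cancel_left (hK hc)).1 hgK
  · have := pow_mem ((K.mul_mem_cancel_left (hK hc)).1 hgK) 2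
    rwa [← pow_mul, show 2 * 2 = 3 + 1 from rfl, pow_succ, qo_cube, one_mul] at this

theorem exists_sylow_Q8 (hns : ¬ IsSquare (2 : F)) :
    ∃ P : Sylow 2 (UQ F), (P : Subgroup (UQ F)) = Q8 F :=
  exists_sylow_of_cube _ isPGroup_Q8 fun g hg => by
    obtain ⟨r, c, hc, rfl⟩ := normalizer_Q8 hns hg
    exact cube_mem (pow_mem qo_mem_normalizer r)
      (by rw [← pow_mul, mul_comm, pow_mul, qo_cube, one_pow]; exact one_mem _) hc

theorem exists_proj : ∃ π : UQ F →* PSLT F, Function.Surjective π ∧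
    ∀ a b, π a = π b ↔ a = b ∨ a = -b := by
  obtain ⟨α, β, h⟩ := exists_sq_add_sq (-1 : F)
  refine ⟨pr.comp (splU h).toMonoidHom, pr_surjective.comp (splU h).surjective, fun a b => ?_⟩
  change pr (splU h a) = pr (splU h b) ↔ _
  rw [pr_eq_iff, ← splU_neg, EmbeddingLike.apply_eq_iff_eq, EmbeddingLike.apply_eq_iff_eq]

omit [Finite F] in
theorem qo_conj_val (x : UQ F) :
    (qo * x * qo⁻¹).1 = qm x.1.re x.1.imJ x.1.imK x.1.imI := by
  have := NeZero.ne (2 : F)
  ext <;> simp [qo_val, uq_inv] <;> field_simp <;> ring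

theorem Q8_sq {x : UQ F} (hx : x ∈ Q8 F) : x * x = 1 ∨ x * x = -1 := by
  have e1 : (qi * qi : UQ F) = -1 := Subtype.ext (by ext <;> simp [qi_val])
  have e2 : (qj * qj : UQ F) = -1 := Subtype.ext (by ext <;> simp [qj_val])
  have e3 : (qk * qk : UQ F) = -1 := Subtype.ext (by ext <;> simp [qk_val])
  rcases mem_Q8.1 hx with rfl | rfl | rfl | rfl | rfl | rfl | rfl | rfl <;> simp [e1, e2, e3]

theorem eq_Q8 (hns : ¬ IsSquare (2 : F)) {H K : Subgroup (UQ F)} (hH : Q8 F ≤ H) (hHK : H ≤ K)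
    {g : UQ F} (hg : g ∈ normalizer (Q8 F : Set (UQ F))) (hg' : g ∉ Q8 F)
    (hgK : ∀ x ∈ H, g * x * g⁻¹ ∈ K) (ho : qo ∉ K) : H = Q8 F := by
  obtain ⟨π, hπ, hπ'⟩ := exists_proj (F := F)
  obtain ⟨P, hP⟩ := exists_sylow_Q8 hns
  have hmem : ∀ J : Subgroup (UQ F), Q8 F ≤ J → ∀ x, π x ∈ J.map π ↔ x ∈ J := fun J hJ x => by
    refine ⟨?_, fun h => ⟨x, h, rfl⟩⟩
    rintro ⟨y, hy, e⟩
    rcases (hπ' _ _).1 e.symm with rfl | rfl
    · exact hy
    · simpa using J.mul_mem (hJ neg_one_mem_Q8) hy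
  have hV : ((P.mapSurjective hπ : Sylow 2 (PSLT F)) : Subgroup (PSLT F)) = (Q8 F).map π := by
    rw [Sylow.coe_mapSurjective, hP]
  have hsq : ∀ v ∈ ((P.mapSurjective hπ : Sylow 2 (PSLT F)) : Subgroup (PSLT F)), v * v = 1 := by
    rw [hV]
    rintro _ ⟨v, hv, rfl⟩
    rw [← map_mul, ← map_one π, hπ']
    exact Q8_sq hv
  have hcomm : ∀ u ∈ Q8 F, ∀ v ∈ Q8 F, Commute (π u) (π v) := by
    intro u hu v hv
    have hu' := hsq (π u) (hV ▸ mem_map_of_mem π hu)
    have hv' := hsq (π v) (hV ▸ mem_map_of_mem π hv)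
    have h1 := inv_eq_of_mul_eq_one_right (hsq (π (u * v)) (hV ▸ mem_map_of_mem π (mul_mem hu hv)))
    rw [map_mul, mul_inv_rev, inv_eq_of_mul_eq_one_right hu',
      inv_eq_of_mul_eq_one_right hv'] at h1
    exact h1.symm
  have hne : ∀ a b : UQ F, a.1.imI = 1 ∧ b.1.imI = 0 ∨ a.1.imJ = 1 ∧ b.1.imJ = 0 ∨
      a.1.imK = 1 ∧ b.1.imK = 0 → π a ≠ π b := fun a b h e => by
    rcases (hπ' _ _).1 e with rfl | rfl <;> rcases h with ⟨h, h'⟩ | ⟨h, h'⟩ | ⟨h, h'⟩ <;>
      simp [h'] at h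
  have key := eq_of_four (P.mapSurjective hπ) hsq (a := π qi) (b := π qj)
    (hV ▸ mem_map_of_mem π qi_mem) (hV ▸ mem_map_of_mem π qj_mem)
    (map_one π ▸ hne _ _ (by simp [qi_val])) (map_one π ▸ hne _ _ (by simp [qj_val]))
    (hne _ _ (by simp [qi_val, qj_val])) (g := π g) (by
      rw [hV]
      refine mem_normalizer_fintype ?_
      rintro _ ⟨x, hx, rfl⟩
      exact ⟨_, (mem_normalizer_iff.1 hg x).1 hx, by simp⟩) (by
      rw [hV]
      rintro _ ⟨v, hv, rfl⟩ e
      have e' : Commute (π g) (π v) := mul_inv_eq_iff_eq_mul.1 e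
      have h3 : Commute (π qo) (π v) := by
        obtain ⟨c, hc, rfl | rfl⟩ := normalizer_Q8' hns hg hg'
        · simpa using (hcomm c hc v hv).inv_left.mul_left e'
        · have h5 : Commute (π qo ^ 2) (π v) := by
            simpa using (hcomm c hc v hv).inv_left.mul_left e'
          have h6 := h5.pow_left 2
          rwa [← pow_mul, show 2 * 2 = 3 + 1 from rfl, pow_succ, ← map_pow, qo_cube, map_one,
            one_mul] at h6
      have h4 : π v = π (qo * v * qo⁻¹) := by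
        rw [map_mul, map_mul, map_inv, h3.eq, mul_inv_cancel_right]
      have h5 : π (-v) = π (qo * v * qo⁻¹) := by rw [← h4, hπ']; simp
      rcases mem_Q8.1 hv with rfl | rfl | rfl | rfl | rfl | rfl | rfl | rfl
      · simp
      · rw [← map_one π, hπ']; simp
      · exact absurd h4 (hne _ _ (by simp [qo_conj_val, qi_val, -Submonoid.coe_mul]))
      · exact absurd h5 (hne _ _ (by simp [qo_conj_val, qi_val, -Submonoid.coe_mul, -mul_neg]))
      · exact absurd h4 (hne _ _ (by simp [qo_conj_val, qj_val, -Submonoid.coe_mul]))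
      · exact absurd h5 (hne _ _ (by simp [qo_conj_val, qj_val, -Submonoid.coe_mul, -mul_neg]))
      · exact absurd h4 (hne _ _ (by simp [qo_conj_val, qk_val, -Submonoid.coe_mul]))
      · exact absurd h5 (hne _ _ (by simp [qo_conj_val, qk_val, -Submonoid.coe_mul, -mul_neg])))
    (fun r R hr hr2 hR x hx y hy hx1 hy1 u v hu hv hu1 hv1 hux hvy =>
      psl_two_invol_eq r R hr hr2 hR x hx y hy hx1 hy1 u v hu hv hu1 hv1 hux hvy (NeZero.ne _))
    (H.map π) (K.map π) (hV ▸ map_mono hH) (map_mono hHK) (by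
      rintro _ ⟨x, hx, rfl⟩
      exact ⟨_, hgK x hx, by simp⟩) (by
      rw [hV]
      rintro _ hn ⟨n, hnK, rfl⟩
      rw [hmem _ le_rfl]
      by_contra hc
      refine ho (qo_mem_of_mem hns (mem_normalizer_fintype fun x hx => ?_) hc (hH.trans hHK) hnK)
      have := (mem_normalizer_iff.1 hn _).1 (mem_map_of_mem π hx)
      rwa [← map_inv, ← map_mul, ← map_mul, hmem _ le_rfl] at this)
  ext x
  rw [← hmem H hH, key, hV, hmem _ le_rfl]

theorem exists_sylow_self (hsq : IsSquare (2 : F)) : ∃ P : Sylow 2 (UQ F),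
    qi ∈ (P : Subgroup (UQ F)) ∧ ∀ g ∈ normalizer ((P : Subgroup (UQ F)) : Set (UQ F)),
      g ∈ (P : Subgroup (UQ F)) := by
  have := Fintype.ofFinite F
  have hodd : Fintype.card F % 2 = 1 := FiniteField.odd_card_of_char_ne_two fun h =>
    NeZero.ne (2 : F) (by
      have := ringChar.Nat.cast_ringChar (R := F)
      rwa [h] at this)
  obtain ⟨α, β, h⟩ := exists_sq_add_sq (-1 : F)
  obtain ⟨P, hP⟩ := (isPGroup_Q8 (F := F)).exists_le_sylow
  refine ⟨P, hP qi_mem, fun g hg => ?_⟩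
  let S : Sylow 2 (SLT F) := P.mapSurjective (f := (splU h).toMonoidHom) (splU h).surjective
  have hS : ∀ x, splU h x ∈ (S : Subgroup (SLT F)) ↔ x ∈ (P : Subgroup (UQ F)) := fun x =>
    ⟨fun ⟨y, hy, e⟩ => (splU h).injective e ▸ hy, fun h => ⟨x, h, rfl⟩⟩
  have h3 := FiniteField.isSquare_two_iff.1 hsq
  rw [← hS, ← (S2431.result (Nat.odd_iff.2 hodd) S).2.1 (by omega)]
  refine mem_normalizer_fintype fun x hx => ?_
  obtain ⟨x, rfl⟩ := (splU h).surjective x
  have := (hS _).2 ((mem_normalizer_iff.1 hg _).1 ((hS x).1 hx))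
  rwa [map_mul, map_mul, map_inv] at this

omit [Finite F] in
theorem eq_of_sq_eq_one {g : UQ F} (h : g * g = 1) : g = 1 ∨ g = -1 := by
  have h2 := NeZero.ne (2 : F)
  have hn := uq_norm' g
  have e := congrArg Subtype.val h
  have e0 := congrArg QuaternionAlgebra.re e
  have e1 := congrArg QuaternionAlgebra.imI e
  have e2 := congrArg QuaternionAlgebra.imJ e
  have e3 := congrArg QuaternionAlgebra.imK e
  simp at e0 e1 e2 e3
  have h0 : (g.1.re - 1) * (g.1.re + 1) = 0 := by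
    apply mul_left_cancel₀ h2
    linear_combination e0 + hn
  have hr : g.1.re ≠ 0 := fun h => by simp [h] at h0
  have h3 : ∀ x : F, g.1.re * x + x * g.1.re = 0 → x = 0 := fun x hx => by
    apply mul_left_cancel₀ (mul_ne_zero h2 hr)
    linear_combination hx
  have a1 := h3 g.1.imI (by linear_combination e1)
  have a2 := h3 g.1.imJ (by linear_combination e2)
  have a3 := h3 g.1.imK (by linear_combination e3)
  rcases mul_eq_zero.1 h0 with h | h
  · left; exact Subtype.ext (by ext <;> simp [a1, a2, a3, sub_eq_zero.1 h])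
  · right; exact Subtype.ext (by ext <;> simp [a1, a2, a3, eq_neg_of_add_eq_zero_left h])

omit [Finite F] in
theorem re_eq_zero_of_sq {g : UQ F} (h : g * g = -1) : g.1.re = 0 := by
  have h2 := NeZero.ne (2 : F)
  have hn := uq_norm' g
  have e0 := congrArg QuaternionAlgebra.re (congrArg Subtype.val h)
  simp at e0
  have : g.1.re ^ 2 = 0 := by
    apply mul_left_cancel₀ h2
    linear_combination e0 + hn
  exact pow_eq_zero_iff two_ne_zero |>.1 this

theorem rank_two (hns : ¬ IsSquare (2 : F)) (M : Subgroup (UQ F)) (hi : qi ∈ M)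
    (hC : ∀ g ∈ M, g * qi = qi * g → g ^ 4 = 1)
    (h4 : ∀ g ∈ M, 2 * (g.1.re ^ 2 + g.1.imI ^ 2) ≠ 1) {n n' : UQ F} (hn : n ∈ M) (hn' : n' ∈ M)
    {a b c : F} (e : n.1 = qm 0 a b c) (e' : n'.1 = qm 0 a (-c) b) : a = 0 ∨ b ^ 2 + c ^ 2 = 0 := by
  have h2 := NeZero.ne (2 : F)
  obtain ⟨π, -, hπ⟩ := exists_proj (F := F)
  have hπ1 : ∀ a, π a = 1 ↔ a = 1 ∨ a = -1 := fun a => by rw [← map_one π, hπ]
  have e1 : (qi * qi : UQ F) = -1 := Subtype.ext (by ext <;> simp [qi_val])
  have c1 : ∀ (k : ℕ) (g : UQ F), π g ^ 2 ^ k = 1 → π g * π g = 1 := fun k => by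
    induction k with
    | zero => intro g hg; rw [pow_zero, pow_one] at hg; rw [hg, one_mul]
    | succ k ih =>
      intro g hg
      have h1 := ih (g * g) (by rw [map_mul, ← sq, ← pow_mul, ← pow_succ', hg])
      rw [← map_mul, hπ1] at h1 ⊢
      rcases h1 with h1 | h1
      · exact eq_of_sq_eq_one h1
      · exfalso
        have h3 := re_eq_zero_of_sq h1
        have h5 := uq_norm' g
        simp at h3
        exact hns ⟨2 * g.1.re, by linear_combination (-2) * h3 - 2 * h5⟩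
  have key := commute_of_burnside (G := M.map π) (m := ⟨π qi, mem_map_of_mem π hi⟩)
    (Subtype.ext (by
      change π qi * π qi = 1
      rw [← map_mul, e1, hπ1]; simp))
    (by
      rintro ⟨_, g, hg, rfl⟩ k hk
      exact Subtype.ext (c1 k g (congrArg Subtype.val hk)))
    (by
      rintro ⟨_, g, hg, rfl⟩ hc
      have h1 : π (g * qi) = π (qi * g) := by
        rw [map_mul, map_mul]; exact congrArg Subtype.val hc
      have h3 : g * g * qi = qi * (g * g) := by
        rcases (hπ _ _).1 h1 with h | h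
        · rw [mul_assoc, h, ← mul_assoc, h, mul_assoc]
        · rw [mul_assoc, h, mul_neg, ← mul_assoc, h, neg_mul, neg_neg, mul_assoc]
      refine ⟨3, Subtype.ext ?_⟩
      change π g ^ 2 ^ 3 = 1
      rw [← map_pow, show 2 ^ 3 = 2 * 4 from rfl, pow_mul, sq, hC _ (M.mul_mem hg hg) h3, map_one])
    (by
      rintro ⟨_, g, hg, rfl⟩ hc
      have h1 : π (g * qi * g⁻¹ * qi) = π (qi * (g * qi * g⁻¹)) := by
        simp only [map_mul, map_inv]; exact congrArg Subtype.val hc
      have hn := uq_norm' g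
      have f0 : (g * qi * g⁻¹).1.re = 0 := by simp [qi_val, uq_inv]; ring
      have f1 : (g * qi * g⁻¹).1.imI = 2 * (g.1.re ^ 2 + g.1.imI ^ 2) - 1 := by
        simp [qi_val, uq_inv]
        linear_combination -hn
      have h3 : π (g * qi * g⁻¹) = π qi := by
        have f2 := uq_norm' (g * qi * g⁻¹)
        generalize g * qi * g⁻¹ = y at *
        rcases (hπ _ _).1 h1 with h | h
        · have e2 := congrArg QuaternionAlgebra.imJ (congrArg Subtype.val h)
          have e3 := congrArg QuaternionAlgebra.imK (congrArg Subtype.val h)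
          simp [qi_val] at e2 e3
          have a2 : y.1.imK = 0 := mul_left_cancel₀ h2 (by linear_combination e2)
          have a3 : y.1.imJ = 0 := mul_left_cancel₀ h2 (by linear_combination -e3)
          have a1 : (y.1.imI - 1) * (y.1.imI + 1) = 0 := by
            rw [f0, a2, a3] at f2
            linear_combination f2
          rw [hπ]
          rcases mul_eq_zero.1 a1 with h | h
          · left; exact Subtype.ext (by ext <;> simp [qi_val, f0, a2, a3, sub_eq_zero.1 h])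
          · right
            exact Subtype.ext (by ext <;> simp [qi_val, f0, a2, a3, eq_neg_of_add_eq_zero_left h])
        · have e2 := congrArg QuaternionAlgebra.re (congrArg Subtype.val h)
          simp [qi_val] at e2
          have a2 : y.1.imI = 0 := mul_left_cancel₀ h2 (by linear_combination -e2)
          exact absurd (by linear_combination a2 - f1) (h4 g hg)
      refine Subtype.ext ?_
      change π g * π qi = π qi * π g
      rw [map_mul, map_mul, map_inv] at h3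
      exact mul_inv_eq_iff_eq_mul.1 h3)
    ⟨π n, mem_map_of_mem π hn⟩ ⟨π n', mem_map_of_mem π hn'⟩
  have h1 : π (qi * (n * qi * n⁻¹) * (qi * (n' * qi * n'⁻¹))) =
      π (qi * (n' * qi * n'⁻¹) * (qi * (n * qi * n⁻¹))) := by
    simp only [map_mul, map_inv]; exact congrArg Subtype.val key
  have hn1 := uq_norm' n
  rw [e] at hn1
  simp only [qm_re, qm_imI, qm_imJ, qm_imK] at hn1
  have t1 : (qi * (n * qi * n⁻¹)).1 = qm (1 - 2 * a ^ 2) 0 (-2 * a * c) (2 * a * b) := by
    ext <;> simp [qi_val, uq_inv, e]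
    · linear_combination hn1
    · ring
    · ring
    · ring
  have t2 : (qi * (n' * qi * n'⁻¹)).1 = qm (1 - 2 * a ^ 2) 0 (-2 * a * b) (-2 * a * c) := by
    ext <;> simp [qi_val, uq_inv, e']
    · linear_combination hn1
    · ring
    · ring
    · ring
  generalize qi * (n * qi * n⁻¹) = t at t1 h1
  generalize qi * (n' * qi * n'⁻¹) = t' at t2 h1
  rcases (hπ _ _).1 h1 with h | h
  · have e2 := congrArg QuaternionAlgebra.imI (congrArg Subtype.val h)
    simp [t1, t2] at e2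
    have : 2 ^ 3 * (a ^ 2 * (b ^ 2 + c ^ 2)) = 0 := by linear_combination e2
    simpa [h2] using this
  · have e2 := congrArg QuaternionAlgebra.re (congrArg Subtype.val h)
    simp [t1, t2] at e2
    have : (1 - 2 * a ^ 2) ^ 2 = 0 := mul_left_cancel₀ h2 (by linear_combination e2)
    exact absurd ⟨2 * a, by linear_combination 2 * (pow_eq_zero_iff two_ne_zero).1 this⟩ hns

end Cfsg.Agent.Pron
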