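import Cfsg.Agent.Pron.Main

/-!
The symplectic group as a unitary group over the split quaternions.
-/

set_option autoImplicit false

namespace Cfsg.Agent.Pron

open Quaternion Subgroup Matrix Equiv Cfsg.Agent.SL2

variable {F : Type*} [Field F] {ι : Type*} [Fintype ι] [DecidableEq ι] [NeZero (2 : F)]

/-- Quaternion matrices as block matrices. -/
def blk {α β : F} (h : α ^ 2 + β ^ 2 = -1) : Matrix ι ι ℍ[F] ≃+* Matrix (ι ⊕ ι) (ι ⊕ ι) F where
  toFun M := fromBlocks (of fun a b => spl h (M a b) 0 0) (of fun a b => spl h (M a b) 0 1)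
    (of fun a b => spl h (M a b) 1 0) (of fun a b => spl h (M a b) 1 1)
  invFun A := of fun a b => (spl h).symm
    !![A (.inl a) (.inl b), A (.inl a) (.inr b); A (.inr a) (.inl b), A (.inr a) (.inr b)]
  left_inv M := by
    ext1 a b
    refine (RingEquiv.symm_apply_eq (spl h)).2 ?_
    apply m2_ext <;> simp
  right_inv A := by
    ext (a | a) (b | b) <;> simp
  map_mul' M N := by
    ext (a | a) (b | b) <;>
      simp [mul_apply, Matrix.sum_apply, Fin.sum_univ_two, Finset.sum_add_distrib]
  map_add' M N := by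
    ext (a | a) (b | b) <;> simp

theorem blk_star {α β : F} (h : α ^ 2 + β ^ 2 = -1) (M : Matrix ι ι ℍ[F]) :
    blk h (star M) = -J ι F * (blk h M)ᵀ * J ι F := by
  change fromBlocks _ _ _ _ = -J ι F * (fromBlocks _ _ _ _)ᵀ * J ι F
  rw [J, fromBlocks_neg, fromBlocks_transpose, fromBlocks_multiply, fromBlocks_multiply]
  ext (a | a) (b | b) <;> simp [spl_apply] <;> ring

theorem blk_mem {α β : F} (h : α ^ 2 + β ^ 2 = -1) (M : Matrix ι ι ℍ[F]) :
    blk h M ∈ symplecticGroup ι F ↔ M ∈ unitary (Matrix ι ι ℍ[F]) := by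
  rw [Unitary.mem_iff, ← (blk h).injective.eq_iff, ← (blk h).injective.eq_iff, map_mul, map_mul,
    map_one, blk_star]
  constructor
  · intro hM
    have := SymplecticGroup.inv_left_mul_aux hM
    simp only [← Matrix.neg_mul] at this
    exact ⟨this, mul_eq_one_comm.1 this⟩
  · rintro ⟨h1, -⟩
    rw [SymplecticGroup.mem_iff']
    have := congrArg (J ι F * ·) h1
    simpa [← Matrix.mul_assoc, J_squared] using this

/-- The symplectic group as a unitary group. -/
def umEquiv {α β : F} (h : α ^ 2 + β ^ 2 = -1) : UM ι F ≃* symplecticGroup ι F where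
  toFun g := ⟨blk h g.1, (blk_mem h _).2 g.2⟩
  invFun g := ⟨(blk h).symm g.1, (blk_mem h _).1 (by simp)⟩
  left_inv g := Subtype.ext ((blk h).symm_apply_apply _)
  right_inv g := Subtype.ext ((blk h).apply_symm_apply _)
  map_mul' a b := Subtype.ext (map_mul (blk h) _ _)

theorem good_sp [Finite F] (k : ℕ) : Good (symplecticGroup (Fin (2 ^ k)) F) := by
  obtain ⟨α, β, h⟩ := exists_sq_add_sq (-1 : F)
  have : Nonempty (Fin (2 ^ k)) := ⟨⟨0, by positivity⟩⟩
  exact (good_UM SymAlt.isPGroup_tree (tree_trans k) fun _ => mem_tree_of_normalizes').of_equiv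
    (umEquiv h)

end Cfsg.Agent.Pron
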