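import Cfsg.Agent.Pron.Mat

/-!
Computations in rank two unitary groups over the quaternions.
-/

set_option autoImplicit false

namespace Cfsg.Agent.Pron

open Quaternion Subgroup Matrix Equiv Cfsg.Agent.GLn

variable {F : Type*} [Field F] {ι : Type*} [Fintype ι] [DecidableEq ι] [NeZero (2 : F)]

/-- Conjugation by a quaternion of norm `1 / 2`. -/
def cj (φ : ℍ[F]) (h : 2 * normSq φ = 1) : UQ F →* UQ F where
  toFun c := ⟨(2 : F) • (φ * c.1 * star φ), mem_uq.2 (by
    rw [normSq_smul, map_mul, map_mul, normSq_star, uq_norm]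
    linear_combination (2 * normSq φ + 1) * h)⟩
  map_one' := Subtype.ext (by
    change (2 : F) • (φ * 1 * star φ) = 1
    rw [mul_one, self_mul_star, Quaternion.smul_coe, h, Quaternion.coe_one])
  map_mul' a b := Subtype.ext (by
    change (2 : F) • (φ * (a.1 * b.1) * star φ) =
      (2 : F) • (φ * a.1 * star φ) * (2 : F) • (φ * b.1 * star φ)
    have : ∀ y, star φ * (φ * y) = normSq φ • y := fun y => by
      rw [← mul_assoc, Quaternion.star_mul_self, coe_mul_eq_smul]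
    simp only [mul_smul_comm, smul_mul_assoc, mul_assoc, this, smul_smul, h, mul_one])

omit [NeZero (2 : F)] in
theorem cj_val (φ : ℍ[F]) (h : 2 * normSq φ = 1) (c : UQ F) :
    (cj φ h c).1 = (2 : F) • (φ * c.1 * star φ) := rfl

omit [NeZero (2 : F)] in
theorem cj_cj (φ : ℍ[F]) (h : 2 * normSq φ = 1) (h' : 2 * normSq (star φ) = 1) (c : UQ F) :
    cj φ h (cj (star φ) h' c) = c := by
  apply Subtype.ext
  have : ∀ y, φ * (star φ * y) = normSq φ • y := fun y => by
    rw [← mul_assoc, self_mul_star, coe_mul_eq_smul]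
  simp only [cj_val, mul_smul_comm, smul_mul_assoc, mul_assoc, this, smul_smul, star_star,
    self_mul_star, mul_coe_eq_smul]
  rw [show 2 * (2 * (normSq φ * normSq φ)) = 1 by linear_combination (2 * normSq φ + 1) * h,
    one_smul]

/-- The action on the antidiagonal. -/
def Cm (d : UQ F) : UM (Fin 2) F :=
  ⟨(2⁻¹ : F) • !![1 + d.1, 1 - d.1; 1 - d.1, 1 + d.1], by
    have h := uq_norm' d
    have h2 := NeZero.ne (2 : F)
    constructor <;> ext i j <;> fin_cases i <;> fin_cases j <;>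
      simp [mul_apply, Fin.sum_univ_two] <;> field_simp <;>
      first | ring1 | linear_combination 2 * h | linear_combination -2 * h⟩

theorem Cm_val (d : UQ F) :
    (Cm d).1 = (2⁻¹ : F) • !![1 + d.1, 1 - d.1; 1 - d.1, 1 + d.1] := rfl

theorem Cm_cj (φ : ℍ[F]) (h : 2 * normSq φ = 1) (c : UQ F) :
    (Cm (cj φ h c)).1 = el ![φ, -φ] c.1 := by
  have h2 := NeZero.ne (2 : F)
  have e : φ * (c.1 - 1) * star φ = φ * c.1 * star φ - (2⁻¹ : F) • 1 := by
    rw [mul_sub, sub_mul, mul_one, self_mul_star, eq_inv_of_mul_eq_one_right h,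
      ← Quaternion.coe_one, Quaternion.smul_coe, mul_one]
  ext1 i j
  rw [el_apply, Cm_val, cj_val]
  fin_cases i <;> fin_cases j <;> simp [e] <;> match_scalars <;> field_simp <;> ring

omit [NeZero (2 : F)] in
theorem sg_zero_val (c : UQ F) : (sg 0 c : UM (Fin 2) F).1 = !![c.1, 0; 0, 1] := by
  ext1 i j
  fin_cases i <;> fin_cases j <;> simp [sg_eq, dg_val]

omit [NeZero (2 : F)] in
theorem sg_one_val (c : UQ F) : (sg 1 c : UM (Fin 2) F).1 = !![1, 0; 0, c.1] := by
  ext1 i j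
  fin_cases i <;> fin_cases j <;> simp [sg_eq, dg_val]

theorem Cm_swap (c : UQ F) : Cm (-1) * sg 0 c * (Cm (-1))⁻¹ = sg 1 c := by
  have h2 := NeZero.ne (2 : F)
  rw [mul_inv_eq_iff_eq_mul]
  apply Subtype.ext
  ext1 i j
  fin_cases i <;> fin_cases j <;>
    simp [Cm_val, sg_zero_val, sg_one_val, mul_apply, Fin.sum_univ_two, add_mul, mul_add]

theorem Cm_conj (d c : UQ F) :
    (sg 0 d * sg 1 d) * Cm c * (sg 0 d * sg 1 d)⁻¹ = Cm (d * c * d⁻¹) := by
  rw [mul_inv_eq_iff_eq_mul]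
  apply Subtype.ext
  have : star d.1 * d.1 = 1 := d.2.1
  ext1 i j
  fin_cases i <;> fin_cases j <;>
    simp [Cm_val, sg_zero_val, sg_one_val, mul_apply, Fin.sum_univ_two, add_mul, mul_add, uq_inv,
      mul_assoc, this, mul_sub, sub_mul]

theorem Cm_word : (sg 0 (-1) * sg 1 qi * Cm qj * sg 0 (-qk) * Cm qi : UM (Fin 2) F) =
    sg 0 qo * sg 1 qo := by
  have h2 := NeZero.ne (2 : F)
  apply Subtype.ext
  ext i j <;> fin_cases i <;> fin_cases j <;>
    simp [Cm_val, sg_zero_val, sg_one_val, mul_apply, Fin.sum_univ_two, qi_val, qj_val, qk_val,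
      qo_val] <;> field_simp <;> ring

/-- A quaternion as a matrix over `F[i]`. -/
def kapM (g : ℍ[F]) : Matrix (Fin 2) (Fin 2) ℍ[F] :=
  !![qm g.re g.imI 0 0, qm g.imJ g.imK 0 0; qm (-g.imJ) g.imK 0 0, qm g.re (-g.imI) 0 0]

omit [NeZero (2 : F)] in
theorem kapM_one : kapM (1 : ℍ[F]) = 1 := by
  ext i j <;> fin_cases i <;> fin_cases j <;> simp [kapM]

omit [NeZero (2 : F)] in
theorem kapM_mul (a b : ℍ[F]) : kapM (a * b) = kapM a * kapM b := by
  ext i j <;> fin_cases i <;> fin_cases j <;> simp [kapM, mul_apply, Fin.sum_univ_two] <;> ring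

omit [NeZero (2 : F)] in
theorem kapM_star (a : ℍ[F]) : star (kapM a) = kapM (star a) := by
  ext i j <;> fin_cases i <;> fin_cases j <;> simp [kapM]

/-- The special unitary group of the plane over `F[i]`. -/
def kap : UQ F →* UM (Fin 2) F where
  toFun g := ⟨kapM g.1, by rw [kapM_star, ← kapM_mul, g.2.1, kapM_one],
    by rw [kapM_star, ← kapM_mul, g.2.2, kapM_one]⟩
  map_one' := Subtype.ext kapM_one
  map_mul' a b := Subtype.ext (kapM_mul _ _)

omit [NeZero (2 : F)] in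
theorem kap_val (g : UQ F) : (kap g).1 = !![qm g.1.re g.1.imI 0 0, qm g.1.imJ g.1.imK 0 0;
      qm (-g.1.imJ) g.1.imK 0 0, qm g.1.re (-g.1.imI) 0 0] := rfl

omit [NeZero (2 : F)] in
theorem commute_kap (g : UQ F) : Commute (dg fun _ => qi) (kap g) := by
  apply Subtype.ext
  ext i j <;> fin_cases i <;> fin_cases j <;> simp [dg_val, kap_val, qi_val]

theorem pure_aux {η : ℍ[F]} {δ : F} (hδ : δ = 0 ∨ δ = 1) (h0 : η.re = 0) (h1 : normSq η = δ ^ 2)
    (h : ∀ c ∈ Q8 F, normSq (c.1 + (η - (δ : ℍ[F]))) = 0 ∨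
      normSq (c.1 + (η - (δ : ℍ[F]))) = 1) :
    η = 0 ∧ δ = 0 := by
  have h2 := NeZero.ne (2 : F)
  have h' : ∀ c ∈ Q8 F, normSq (c.1 + (η - (δ : ℍ[F]))) *
      (normSq (c.1 + (η - (δ : ℍ[F]))) - 1) = 0 := fun c hc => by
    rcases h c hc with e | e <;> simp [e]
  have a1 := h' _ qi_mem
  have a2 := h' _ (inv_mem qi_mem)
  have a3 := h' _ qj_mem
  have a4 := h' _ (inv_mem qj_mem)
  have a5 := h' _ qk_mem
  have a6 := h' _ (inv_mem qk_mem)
  simp only [normSq_eq, qi_val, qj_val, qk_val, uq_inv, re_add, imI_add, imJ_add, imK_add, re_sub,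
    imI_sub, imJ_sub, imK_sub, re_coe, imI_coe, imJ_coe, imK_coe, re_star, imI_star, imJ_star,
    imK_star, qm_re, qm_imI, qm_imJ, qm_imK, h0] at a1 a2 a3 a4 a5 a6 h1
  have key : ∀ x y z : F, x ^ 2 + y ^ 2 + z ^ 2 = δ ^ 2 →
      (δ ^ 2 + (1 + x) ^ 2 + y ^ 2 + z ^ 2) * (δ ^ 2 + (1 + x) ^ 2 + y ^ 2 + z ^ 2 - 1) = 0 →
      (δ ^ 2 + (-1 + x) ^ 2 + y ^ 2 + z ^ 2) * (δ ^ 2 + (-1 + x) ^ 2 + y ^ 2 + z ^ 2 - 1) = 0 →
      (1 + 4 * δ ^ 2) * x = 0 ∧ 2 * x ^ 2 + δ ^ 2 * (1 + 2 * δ ^ 2) = 0 := fun x y z e b1 b2 => by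
    have e1 : δ ^ 2 + (1 + x) ^ 2 + y ^ 2 + z ^ 2 = 1 + 2 * δ ^ 2 + 2 * x := by
      linear_combination e
    have e2 : δ ^ 2 + (-1 + x) ^ 2 + y ^ 2 + z ^ 2 = 1 + 2 * δ ^ 2 - 2 * x := by
      linear_combination e
    rw [e1] at b1
    rw [e2] at b2
    exact ⟨mul_left_cancel₀ (mul_ne_zero h2 h2) (by linear_combination b1 - b2),
      mul_left_cancel₀ (mul_ne_zero h2 h2) (by linear_combination b1 + b2)⟩
  obtain ⟨b1, b2⟩ := key η.imI η.imJ η.imK (by linear_combination h1) (by linear_combination a1)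
    (by linear_combination a2)
  obtain ⟨b3, b4⟩ := key η.imJ η.imI η.imK (by linear_combination h1) (by linear_combination a3)
    (by linear_combination a4)
  obtain ⟨b5, b6⟩ := key η.imK η.imI η.imJ (by linear_combination h1) (by linear_combination a5)
    (by linear_combination a6)
  rcases hδ with rfl | rfl
  · refine ⟨?_, rfl⟩
    ext
    · exact h0
    · simpa using b1
    · simpa using b3
    · simpa using b5
  · exfalso
    have c1 : (11 : F) = 0 := by linear_combination b2 + b4 + b6 - 2 * h1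
    have c2 : (15 : F) = 0 := by linear_combination 5 * b2 - 2 * η.imI * b1
    exact one_ne_zero (α := F) (by linear_combination 3 * c2 - 4 * c1)

theorem pure_zero {v : ℍ[F]} (hv : normSq v = 0 ∨ normSq v = 1)
    (h : ∀ c ∈ Q8 F, ∀ c' ∈ Q8 F, normSq (c.1 + star v * (c'.1 - 1) * v) = 0 ∨
      normSq (c.1 + star v * (c'.1 - 1) * v) = 1) : v = 0 := by
  have h2 := NeZero.ne (2 : F)
  have key : ∀ c' ∈ Q8 F, c'.1.re = 0 → star v * c'.1 * v = 0 ∧ normSq v = 0 := fun c' hc' h0 =>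
    pure_aux hv (by simp [h0]; ring) (by rw [map_mul, map_mul, normSq_star, uq_norm]; ring)
      fun c hc => by
        have := h c hc c' hc'
        rwa [mul_sub, sub_mul, mul_one, Quaternion.star_mul_self] at this
  have a1 := congrArg QuaternionAlgebra.imI (key _ qi_mem (by simp [qi_val])).1
  have a2 := congrArg QuaternionAlgebra.imJ (key _ qj_mem (by simp [qj_val])).1
  have a3 := congrArg QuaternionAlgebra.imK (key _ qk_mem (by simp [qk_val])).1
  have a0 := (key _ qi_mem (by simp [qi_val])).2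
  simp [qi_val, qj_val, qk_val, normSq_eq] at a0 a1 a2 a3
  have h4 : ∀ x : F, 2 * 2 * x ^ 2 = 0 → x = 0 := fun x hx => by simpa [h2] using hx
  ext
  · exact h4 _ (by linear_combination a0 + a1 + a2 + a3)
  · exact h4 _ (by linear_combination a0 + a1 - a2 - a3)
  · exact h4 _ (by linear_combination a0 - a1 + a2 - a3)
  · exact h4 _ (by linear_combination a0 - a1 - a2 + a3)

variable [Finite F]

theorem coords_ne (hns : ¬ IsSquare (2 : F)) {g : UQ F}
    (hg : g ∈ normalizer (Q8 F : Set (UQ F))) (hg' : g ∉ Q8 F) : g.1.re ≠ 0 ∧ g.1.imJ ≠ 0 := by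
  have h2 := NeZero.ne (2 : F)
  have e : (qo ^ 2 : UQ F).1 = qm (-2⁻¹) (-2⁻¹) (-2⁻¹) (-2⁻¹) := by
    ext <;> simp [qo_val, sq] <;> field_simp <;> ring
  obtain ⟨c, hc, rfl | rfl⟩ := normalizer_Q8' hns hg hg' <;>
    rcases mem_Q8.1 hc with rfl | rfl | rfl | rfl | rfl | rfl | rfl | rfl <;>
    simp [qi_val, qj_val, qk_val, qo_val, h2, e, -SubmonoidClass.coe_pow]

theorem conj_qo (hns : ¬ IsSquare (2 : F)) {p : UQ F} (hp : p ∈ normalizer (Q8 F : Set (UQ F))) :
    p * qo * p⁻¹ * qo⁻¹ ∈ Q8 F := by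
  obtain ⟨r, c, hc, rfl⟩ := normalizer_Q8 hns hp
  have := mul_mem hc ((mem_normalizer_iff.1 qo_mem_normalizer _).1 (inv_mem hc))
  convert this using 1
  group

theorem comm_Q8 (hns : ¬ IsSquare (2 : F)) {a b : UQ F} (ha : a ∈ normalizer (Q8 F : Set (UQ F)))
    (hb : b ∈ normalizer (Q8 F : Set (UQ F))) : a * b * a⁻¹ * b⁻¹ ∈ Q8 F := by
  obtain ⟨r, c, hc, rfl⟩ := normalizer_Q8 hns ha
  obtain ⟨s, d, hd, rfl⟩ := normalizer_Q8 hns hb
  have := mul_mem (mul_mem (mul_mem hc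
    ((mem_normalizer_iff.1 (pow_mem qo_mem_normalizer r) _).1 hd))
    ((mem_normalizer_iff.1 (pow_mem qo_mem_normalizer s) _).1 (inv_mem hc))) (inv_mem hd)
  convert this using 1
  group

variable {T : Subgroup (Perm ι)} {H : Subgroup (UM ι F)}

theorem avg {Q : Subgroup (UQ F)} (hT : IsPGroup 2 T) (hT1 : ∀ x y, ∃ σ ∈ T, σ x = y)
    (hH : wr Q T ≤ H) {a a' : ι} (h : sg a qo * sg a' qo ∈ H) : (dg fun _ => qo) ∈ H := by
  classical
  let f : Multiplicative (ι → ℕ) →* UM ι F :=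
    { toFun := fun v => dg fun j => qo ^ v.toAdd j
      map_one' := by simp [← Pi.one_def]
      map_mul' := fun v w => by
        rw [← map_mul]
        congr 1
        funext j
        simp [pow_add] }
  have h1 : ∀ τ : T, f (.ofAdd (Pi.single (τ.1 a) 1 + Pi.single (τ.1 a') 1)) ∈ H := fun τ => by
    have := H.mul_mem (H.mul_mem (hH (pm_mem_wr τ.2)) h) (H.inv_mem (hH (pm_mem_wr τ.2)))
    convert this using 1
    rw [eq_mul_inv_iff_mul_eq, sg_eq, sg_eq, ← map_mul]
    change dg _ * _ = _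
    rw [dg_mul_pm]
    congr 2
    funext j
    simp [pow_add, Pi.single_apply, Pi.mulSingle_apply]
  let v : ι → ℕ := ∑ τ : T, (Pi.single (τ.1 a) 1 + Pi.single (τ.1 a') 1)
  have h2 : f (.ofAdd v) ∈ H := by
    rw [ofAdd_sum]
    exact (H.toSubmonoid.comap f).prod_mem fun τ _ => h1 τ
  have h3 : ∀ j, v j = v a := fun j => by
    obtain ⟨ρ, hρ, rfl⟩ := hT1 a j
    simp only [v, Finset.sum_apply]
    refine (Fintype.sum_equiv (Equiv.mulLeft (⟨ρ, hρ⟩ : T)) _ _ fun τ => ?_).symm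
    simp [Pi.single_apply]
  have h4 : Fintype.card ι * v a = Fintype.card T * 2 := by
    rw [← smul_eq_mul, ← Finset.card_univ, ← Finset.sum_const,
      ← Finset.sum_congr rfl fun j _ => h3 j]
    simp only [v, Finset.sum_apply]
    rw [Finset.sum_comm]
    simp [Finset.sum_add_distrib, mul_two]
  obtain ⟨k, hk⟩ := IsPGroup.iff_card.1 hT
  have h5 : ¬ 3 ∣ v a := fun h => by
    have : 3 ∣ 2 ^ (k + 1) := by
      rw [pow_succ, ← hk, Nat.card_eq_fintype_card, ← h4]
      exact h.mul_left _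
    exact absurd (Nat.prime_three.dvd_of_dvd_pow this) (by norm_num)
  have h6 : (dg fun _ => qo) ^ v a ∈ H := by
    convert h2 using 1
    rw [← map_pow]
    change dg _ = dg _
    congr 1
    funext j
    simp [h3 j]
  have h7 : (dg fun _ => qo : UM ι F) ^ 3 = 1 := by
    rw [← map_pow, ← map_one dg]
    congr 1
    funext j
    exact qo_cube
  have h8 := pow_mem h6 (v a)
  have h9 : v a * v a % 3 = 1 := by
    rw [Nat.mul_mod]
    have : v a % 3 = 1 ∨ v a % 3 = 2 := by omega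
    rcases this with h | h <;> rw [h]
  rwa [← pow_mul, ← Nat.div_add_mod (v a * v a) 3, pow_add, pow_mul, h7, one_pow, one_mul, h9,
    pow_one] at h8

end Cfsg.Agent.Pron
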